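import Cfsg.Agent.ConjPSub.Cubed
import Cfsg.Agent.S0016

/-!
Finite groups in which `p`-subgroups of equal order are conjugate: the Sylow `p`-subgroups are
cyclic, quaternion of order eight, or of exponent `p`; if noncommutative of exponent `p`, they
have order `p ^ 3`.
-/

set_option autoImplicit false

namespace Cfsg.Agent.ConjPSub

open Subgroup

variable {G : Type*} [Group G] [Finite G]

theorem shape {p : ℕ} [hp : Fact p.Prime]
    (hD : ∀ H K : Subgroup G, IsPGroup p H → IsPGroup p K → Nat.card H = Nat.card K →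
      ∃ g : G, K = H.map (MulAut.conj g).toMonoidHom) (P : Subgroup G) (hP : IsPGroup p ↥P) :
    IsCyclic ↥P ∨ (∀ a ∈ P, a ^ p = 1) ∨ (p = 2 ∧ Nonempty (↥P ≃* QuaternionGroup 2)) := by
  by_cases hu : ∀ H K : Subgroup ↥P, Nat.card H = p → Nat.card K = p → H = K
  · rcases S0016.result p hP hu with hc | ⟨rfl, n, ⟨e⟩⟩
    · exact Or.inl hc
    rcases lt_trichotomy n 1 with hn | rfl | hn
    · obtain rfl : n = 0 := by omega
      left
      have hc : IsCyclic (QuaternionGroup (2 ^ 0)) := isCyclic_of_orderOf_eq_card (QuaternionGroup.xa 0) (by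
        rw [QuaternionGroup.orderOf_xa, Nat.card_eq_fintype_card, QuaternionGroup.card]; norm_num)
      exact e.isCyclic.2 hc
    · exact Or.inr (Or.inr ⟨rfl, ⟨e.trans (MulEquiv.cast (M := fun k => QuaternionGroup k) (pow_one 2))⟩⟩)
    exfalso
    -- a cyclic subgroup of order eight and a subgroup of order eight through `xa 0`
    set ι : QuaternionGroup (2 ^ n) →* G := P.subtype.comp e.symm.toMonoidHom
    have hι : Function.Injective ι := P.subtype_injective.comp e.symm.injective
    set a : QuaternionGroup (2 ^ n) := QuaternionGroup.a 1 ^ 2 ^ (n - 2)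
    have oa : orderOf a = 8 := by
      rw [show a = _ from rfl, orderOf_pow, QuaternionGroup.orderOf_a_one,
        Nat.gcd_eq_right (dvd_mul_of_dvd_right (pow_dvd_pow 2 (by omega)) 2),
        show 2 * 2 ^ n = 8 * 2 ^ (n - 2) by
          rw [show (8 : ℕ) = 2 * 2 ^ 2 by norm_num, mul_assoc, ← pow_add]
          congr 2
          omega, Nat.mul_div_cancel _ (by positivity)]
    obtain ⟨K, hK, hKle⟩ := Sylow.exists_subgroup_card_pow_succ (p := 2) (n := 2)
      (H := zpowers (QuaternionGroup.xa (0 : ZMod (2 * 2 ^ n))))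
      (by rw [Nat.card_eq_fintype_card, QuaternionGroup.card, show 4 * 2 ^ n = 2 ^ (n + 2) by ring]
          exact pow_dvd_pow 2 (by omega))
      (by rw [Nat.card_zpowers, QuaternionGroup.orderOf_xa]; norm_num)
    obtain ⟨g, hg⟩ := hD ((zpowers a).map ι) (K.map ι)
      (IsPGroup.of_card (n := 3) (by
        rw [← Nat.card_congr ((zpowers a).equivMapOfInjective ι hι).toEquiv, Nat.card_zpowers, oa]; norm_num))
      (IsPGroup.of_card (n := 3) (by
        rw [← Nat.card_congr (K.equivMapOfInjective ι hι).toEquiv, hK]))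
      (by
        rw [← Nat.card_congr ((zpowers a).equivMapOfInjective ι hι).toEquiv, Nat.card_zpowers, oa,
          ← Nat.card_congr (K.equivMapOfInjective ι hι).toEquiv, hK]; norm_num)
    rw [MonoidHom.map_zpowers, MonoidHom.map_zpowers] at hg
    have hmem : (MulAut.conj g).toMonoidHom (ι a) ∈ K.map ι := hg ▸ mem_zpowers _
    obtain ⟨b, hbK, hb⟩ := hmem
    have ob : orderOf b = 8 := by
      rw [← orderOf_injective ι hι, hb, orderOf_injective _ (MulAut.conj g).injective,
        orderOf_injective ι hι, oa]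
    have hKb : zpowers b = K := eq_of_le_of_card_ge (zpowers_le.2 hbK) (by
      rw [Nat.card_zpowers, ob, hK]; norm_num)
    cases b with
    | xa i => rw [QuaternionGroup.orderOf_xa] at ob; norm_num at ob
    | a i =>
      have hx : QuaternionGroup.xa 0 ∈ zpowers (QuaternionGroup.a i) := hKb ▸ hKle (mem_zpowers _)
      obtain ⟨k, hk⟩ := (isOfFinOrder_of_finite _).mem_powers_iff_mem_zpowers.2 hx
      have key : ∀ k : ℕ, ∃ j, (QuaternionGroup.a i : QuaternionGroup (2 ^ n)) ^ k = QuaternionGroup.a j := by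
        intro k
        induction k with
        | zero => exact ⟨0, by rw [pow_zero, QuaternionGroup.one_def]⟩
        | succ k ih =>
          obtain ⟨j, hj⟩ := ih
          exact ⟨j + i, by rw [pow_succ, hj, QuaternionGroup.a_mul_a]⟩
      obtain ⟨j, hj⟩ := key k
      simp only [hj] at hk
      simp at hk
  · push Not at hu
    obtain ⟨H, K, hH, hK, hne⟩ := hu
    refine Or.inr (Or.inl fun b hb => ?_)
    -- a subgroup of order `p ^ 2` and exponent `p`
    haveI : Nontrivial ↥P := by
      refine (Subgroup.nontrivial_iff_ne_bot P).2 fun e => hne ?_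
      subst e
      exact Subsingleton.elim _ _
    haveI : Nontrivial ↥(center ↥P) := hP.center_nontrivial
    obtain ⟨m, hm, hmc⟩ := (IsPGroup.nontrivial_iff_card (hP.to_subgroup (center ↥P))).1 inferInstance
    obtain ⟨⟨z, hzc⟩, hz⟩ := exists_prime_orderOf_dvd_card' (G := ↥(center ↥P)) p
      (hmc ▸ dvd_pow_self p hm.ne')
    rw [Subgroup.orderOf_mk] at hz
    obtain ⟨L, hL, hLz⟩ : ∃ L : Subgroup ↥P, Nat.card L = p ∧ L ≠ zpowers z := by
      by_cases e : H = zpowers z
      · exact ⟨K, hK, fun e' => hne (e.trans e'.symm)⟩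
      · exact ⟨H, hH, e⟩
    obtain ⟨⟨x, hxL⟩, hx⟩ := exists_prime_orderOf_dvd_card' (G := ↥L) p (dvd_of_eq hL.symm)
    rw [Subgroup.orderOf_mk] at hx
    have hxL' : zpowers x = L := eq_of_le_of_card_ge (zpowers_le.2 hxL) (by rw [Nat.card_zpowers, hx, hL])
    have hzx : Commute x z := mem_center_iff.1 hzc x
    set E : Subgroup G := zpowers (x : G) ⊔ zpowers (z : G)
    have hxG : (x : G) ^ p = 1 := by rw [← hx, ← Subgroup.orderOf_coe, pow_orderOf_eq_one]
    have hzG : (z : G) ^ p = 1 := by rw [← hz, ← Subgroup.orderOf_coe, pow_orderOf_eq_one]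
    have hc : Commute (x : G) (z : G) := congrArg Subtype.val hzx
    have hEP : E ≤ P := sup_le (zpowers_le.2 x.2) (zpowers_le.2 z.2)
    let X : Subgroup G :=
      { carrier := {e | e ∈ E ∧ e ^ p = 1 ∧ Commute e x ∧ Commute e z}
        one_mem' := ⟨one_mem _, one_pow _, Commute.one_left _, Commute.one_left _⟩
        mul_mem' := by
          rintro e f ⟨he, he1, he2, he3⟩ ⟨hf, hf1, hf2, hf3⟩
          refine ⟨mul_mem he hf, ?_, he2.mul_left hf2, he3.mul_left hf3⟩
          have hEc : E ≤ centralizer ({e} : Set G) := sup_le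
            (zpowers_le.2 (mem_centralizer_singleton_iff.2 he2.eq.symm))
            (zpowers_le.2 (mem_centralizer_singleton_iff.2 he3.eq.symm))
          have hef : Commute f e := mem_centralizer_singleton_iff.1 (hEc hf)
          rw [hef.symm.mul_pow, he1, hf1, one_mul]
        inv_mem' := by
          rintro e ⟨he, he1, he2, he3⟩
          exact ⟨inv_mem he, by rw [inv_pow, he1, inv_one], he2.inv_left, he3.inv_left⟩ }
    have hEX : E ≤ X := sup_le
      (zpowers_le.2 ⟨mem_sup_left (mem_zpowers _), hxG, Commute.refl _, hc⟩)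
      (zpowers_le.2 ⟨mem_sup_right (mem_zpowers _), hzG, hc.symm, Commute.refl _⟩)
    obtain ⟨j, hj⟩ := IsPGroup.iff_card.1 (hP.to_le hEP)
    have hcx : Nat.card ↥(zpowers (x : G)) = p := by rw [Nat.card_zpowers, Subgroup.orderOf_coe, hx]
    have hj2 : 2 ≤ j := by
      by_contra hlt
      have hle : Nat.card ↥E ≤ p := hj ▸
        (Nat.pow_le_pow_right hp.out.pos (show j ≤ 1 by omega)).trans (le_of_eq (pow_one p))
      have e1 : zpowers (x : G) = E := eq_of_le_of_card_ge le_sup_left (by rwa [hcx])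
      have hmem : (z : G) ∈ zpowers (x : G) := e1 ▸ mem_sup_right (mem_zpowers _)
      refine hLz (hxL'.symm.trans (eq_of_le_of_card_ge (zpowers_le.2 ?_) ?_).symm)
      · obtain ⟨k, hk⟩ := mem_zpowers_iff.1 hmem
        exact ⟨k, Subtype.ext (by simpa using hk)⟩
      · rw [Nat.card_zpowers, Nat.card_zpowers, hx, hz]
    -- an element of order `p ^ 2` would generate a conjugate of a subgroup of `E`
    by_contra hbp
    obtain ⟨k, hk⟩ := IsPGroup.iff_orderOf.1 hP ⟨b, hb⟩
    rw [Subgroup.orderOf_mk] at hk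
    have hk2 : 2 ≤ k := by
      by_contra hlt
      exact hbp (orderOf_dvd_iff_pow_eq_one.1 (hk ▸
        (pow_dvd_pow p (show k ≤ 1 by omega)).trans (dvd_of_eq (pow_one p))))
    set b' := b ^ p ^ (k - 2)
    have ob : orderOf b' = p ^ 2 := by
      rw [show b' = _ from rfl, orderOf_pow, hk, Nat.gcd_eq_right (pow_dvd_pow p (by omega)),
        Nat.pow_div (by omega) hp.out.pos, show k - (k - 2) = 2 by omega]
    haveI : Fact p.Prime := hp
    obtain ⟨E₂, hE₂⟩ := Sylow.exists_subgroup_card_pow_prime (G := ↥E) p (n := 2)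
      (hj ▸ pow_dvd_pow p hj2)
    obtain ⟨g, hg⟩ := hD (zpowers b') (E₂.map E.subtype) (hP.to_le (zpowers_le.2 (P.pow_mem hb _)))
      (hP.to_le ((map_subtype_le _).trans hEP)) (by rw [Nat.card_zpowers, ob, card_subtype, hE₂])
    have hmem : (MulAut.conj g).toMonoidHom b' ∈ E := (map_subtype_le E₂) (hg ▸ ⟨b', mem_zpowers _, rfl⟩)
    have h1 := (hEX hmem).2.1
    rw [← map_pow] at h1
    replace h1 := (map_eq_one_iff (MulAut.conj g).toMonoidHom (MulAut.conj g).injective).1 h1
    have := Nat.le_of_dvd hp.out.pos (ob ▸ orderOf_dvd_of_pow_eq_one h1)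
    nlinarith [hp.out.two_le]

theorem cubed {p : ℕ} [hp : Fact p.Prime]
    (hD : ∀ H K : Subgroup G, IsPGroup p H → IsPGroup p K → Nat.card H = Nat.card K →
      ∃ g : G, K = H.map (MulAut.conj g).toMonoidHom) (P : Subgroup G) (hP : IsPGroup p ↥P)
    (hexp : ∀ a ∈ P, a ^ p = 1) (hnc : ¬ IsMulCommutative ↥P) : Nat.card ↥P = p ^ 3 := by
  classical
  haveI : Nontrivial ↥P := by
    by_contra h
    haveI := not_nontrivial_iff_subsingleton.1 h
    exact hnc ⟨⟨fun a b => Subsingleton.elim _ _⟩⟩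
  obtain ⟨n, hn⟩ := IsPGroup.iff_card.1 hP
  have hn3 : 3 ≤ n := by
    by_contra hlt
    apply hnc
    interval_cases n
    · exact absurd hn (by simp [Finite.one_lt_card.ne'])
    · haveI : IsCyclic ↥P := isCyclic_of_prime_card (hn.trans (pow_one p))
      exact ⟨⟨fun a b => IsCyclic.commutative.is_comm.comm a b⟩⟩
    · exact IsPGroup.isMulCommutative_of_card_eq_prime_sq hn
  by_contra hne
  have hn4 : 4 ≤ n := by
    rcases Nat.lt_or_ge n 4 with h | h
    · exact absurd (by rw [hn, show n = 3 by omega]) hne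
    · exact h
  -- an element in the second centre
  haveI : Nontrivial (↥P ⧸ center ↥P) := by
    by_contra h
    haveI := not_nontrivial_iff_subsingleton.1 h
    refine hnc ⟨⟨fun a b => ?_⟩⟩
    exact (mem_center_iff.1 ((QuotientGroup.eq_one_iff a).1 (Subsingleton.elim _ _)) b).symm
  haveI : Nontrivial ↥(center (↥P ⧸ center ↥P)) := (hP.to_quotient (center ↥P)).center_nontrivial
  obtain ⟨⟨xq, hxq⟩, hxq1⟩ := exists_ne (1 : ↥(center (↥P ⧸ center ↥P)))
  obtain ⟨x, rfl⟩ := QuotientGroup.mk_surjective xq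
  have hxZ : x ∉ center ↥P := fun h => hxq1 (Subtype.ext ((QuotientGroup.eq_one_iff x).2 h))
  have hcomx : ∀ y : ↥P, y * x * y⁻¹ * x⁻¹ ∈ center ↥P := fun y => by
    rw [← QuotientGroup.eq_one_iff, QuotientGroup.mk_mul, QuotientGroup.mk_mul, QuotientGroup.mk_mul,
      QuotientGroup.mk_inv, QuotientGroup.mk_inv, mem_center_iff.1 hxq, mul_inv_cancel_right, mul_inv_cancel]
  have hexp' : ∀ a : ↥P, a ^ p = 1 := fun a => Subtype.ext (hexp a a.2)
  -- a noncommutative subgroup of order `p ^ 3`
  obtain ⟨y, hyx⟩ : ∃ y : ↥P, ¬ Commute y x := by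
    by_contra! h
    exact hxZ (mem_center_iff.2 fun y => (h y).eq)
  set c := y * x * y⁻¹ * x⁻¹
  have hcZ : c ∈ center ↥P := hcomx y
  set K : Subgroup ↥P := zpowers x ⊔ zpowers c
  set H : Subgroup ↥P := K ⊔ zpowers y
  have hc1 : c ≠ 1 := fun e => hyx (mul_inv_eq_iff_eq_mul.1 (mul_inv_eq_one.1 e))
  have hyK : ∀ k ∈ K, y * k * y⁻¹ ∈ K := by
    intro k hk
    have hle : K ≤ K.comap (MulAut.conj y).toMonoidHom := sup_le
      (zpowers_le.2 (by
        show y * x * y⁻¹ ∈ K
        rw [show y * x * y⁻¹ = c * x by simp [c]]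
        exact mul_mem (mem_sup_right (mem_zpowers _)) (mem_sup_left (mem_zpowers _))))
      (zpowers_le.2 (by
        show y * c * y⁻¹ ∈ K
        rw [mem_center_iff.1 hcZ y, mul_inv_cancel_right]
        exact mem_sup_right (mem_zpowers _)))
    exact hle hk
  have hKab : K ≤ centralizer (K : Set ↥P) := by
    have h1 : ∀ a ∈ K, Commute a x := by
      intro a ha
      have : K ≤ centralizer ({x} : Set ↥P) := sup_le
        (zpowers_le.2 (mem_centralizer_singleton_iff.2 rfl))
        (zpowers_le.2 (mem_centralizer_singleton_iff.2 (mem_center_iff.1 hcZ x).symm))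
      exact mem_centralizer_singleton_iff.1 (this ha)
    exact sup_le (zpowers_le.2 (mem_centralizer_iff.2 fun b hb => (h1 b hb).eq))
      (zpowers_le.2 (mem_centralizer_iff.2 fun b hb => mem_center_iff.1 hcZ b))
  -- cardinality of products
  have hprod : ∀ (A B : Subgroup ↥P), B ≤ normalizer (A : Set ↥P) →
      Nat.card ↥(A ⊔ B) ≤ Nat.card ↥A * Nat.card ↥B := by
    intro A B hAB
    rw [← Nat.card_prod]
    refine Nat.card_le_card_of_surjective (fun ab : ↥A × ↥B => (⟨(ab.1 : ↥P) * ab.2,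
      mul_mem (mem_sup_left ab.1.2) (mem_sup_right ab.2.2)⟩ : ↥(A ⊔ B))) ?_
    rintro ⟨w, hw⟩
    have : w ∈ ((A ⊔ B : Subgroup ↥P) : Set ↥P) := hw
    rw [Subgroup.coe_mul_of_right_le_normalizer_left A B hAB] at this
    obtain ⟨a, ha, b, hb, rfl⟩ := this
    exact ⟨(⟨a, ha⟩, ⟨b, hb⟩), rfl⟩
  have cz : ∀ a : ↥P, Nat.card ↥(zpowers a) ≤ p := fun a => by
    rw [Nat.card_zpowers]
    exact Nat.le_of_dvd hp.out.pos (orderOf_dvd_of_pow_eq_one (hexp' a))
  have hH3 : Nat.card ↥H ≤ p ^ 3 := by
    have h1 := hprod (zpowers x) (zpowers c) (zpowers_le.2 (mem_normalizer_iff.2 fun a => by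
      rw [← mem_center_iff.1 hcZ a, mul_inv_cancel_right]))
    have h2 := hprod K (zpowers y) (zpowers_le.2 (by
      rw [mem_normalizer_iff]
      intro a
      refine ⟨hyK a, fun ha => ?_⟩
      have e : ∀ k : ℕ, ∀ b ∈ K, y ^ k * b * (y ^ k)⁻¹ ∈ K := by
        intro k
        induction k with
        | zero => intro b hb; simpa using hb
        | succ k ih =>
          intro b hb
          rw [pow_succ', show y * y ^ k * b * (y * y ^ k)⁻¹ = y * (y ^ k * b * (y ^ k)⁻¹) * y⁻¹ by group]
          exact hyK _ (ih b hb)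
      have := e (p - 1) _ ha
      rw [show y ^ (p - 1) = y⁻¹ from eq_inv_of_mul_eq_one_left (by
        rw [← pow_succ, Nat.sub_add_cancel hp.out.one_le, hexp' y])] at this
      simpa [mul_assoc] using this))
    calc Nat.card ↥H ≤ Nat.card ↥K * Nat.card ↥(zpowers y) := h2
      _ ≤ (Nat.card ↥(zpowers x) * Nat.card ↥(zpowers c)) * Nat.card ↥(zpowers y) := Nat.mul_le_mul_right _ h1
      _ ≤ p * p * p := Nat.mul_le_mul (Nat.mul_le_mul (cz x) (cz c)) (cz y)
      _ = p ^ 3 := by ring
  obtain ⟨h, hh⟩ := IsPGroup.iff_card.1 (hP.to_subgroup H)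
  have hHnc : ¬ IsMulCommutative ↥H := fun hc => hyx (congrArg Subtype.val
    (hc.is_comm.comm (⟨y, mem_sup_right (mem_zpowers _)⟩ : ↥H) ⟨x, mem_sup_left (mem_sup_left (mem_zpowers _))⟩))
  have hh3 : h = 3 := by
    have : h ≤ 3 := (Nat.pow_le_pow_iff_right hp.out.one_lt).1 (hh ▸ hH3)
    interval_cases h
    · haveI : Subsingleton ↥H := (Nat.card_eq_one_iff_unique.1 (by simpa using hh)).1
      exact absurd ⟨⟨fun a b => Subsingleton.elim _ _⟩⟩ hHnc
    · haveI : IsCyclic ↥H := isCyclic_of_prime_card (hh.trans (pow_one p))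
      exact absurd ⟨⟨fun a b => IsCyclic.commutative.is_comm.comm a b⟩⟩ hHnc
    · exact absurd (IsPGroup.isMulCommutative_of_card_eq_prime_sq hh) hHnc
    · rfl
  -- a commutative subgroup of order at least `p ^ 3`
  set C := centralizer ({x} : Set ↥P)
  obtain ⟨A, hAab, hA⟩ : ∃ A : Subgroup ↥P, A ≤ centralizer (A : Set ↥P) ∧ p ^ 3 ∣ Nat.card ↥A := by
    set L := center ↥P ⊔ zpowers x
    have hLC : L ≤ C := sup_le (fun a ha => mem_centralizer_singleton_iff.2 (mem_center_iff.1 ha x).symm)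
      (zpowers_le.2 (mem_centralizer_singleton_iff.2 rfl))
    have hgrow : ∀ (A : Subgroup ↥P) (w : ↥P), A ≤ centralizer (A : Set ↥P) →
        (∀ a ∈ A, Commute a w) → A ⊔ zpowers w ≤ centralizer ((A ⊔ zpowers w : Subgroup ↥P) : Set ↥P) := by
      intro A w hA hw
      have h1 : ∀ a ∈ A ⊔ zpowers w, Commute a w := fun a ha => by
        have : A ⊔ zpowers w ≤ centralizer ({w} : Set ↥P) := sup_le
          (fun b hb => mem_centralizer_singleton_iff.2 (hw b hb).eq)
          (zpowers_le.2 (mem_centralizer_singleton_iff.2 rfl))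
        exact mem_centralizer_singleton_iff.1 (this ha)
      refine sup_le (fun a ha => mem_centralizer_iff.2 fun b hb => ?_)
        (zpowers_le.2 (mem_centralizer_iff.2 fun b hb => (h1 b hb).eq))
      have : A ⊔ zpowers w ≤ centralizer ({a} : Set ↥P) := sup_le
        (fun b hb => mem_centralizer_singleton_iff.2 (mem_centralizer_iff.1 (hA ha) b hb))
        (zpowers_le.2 (mem_centralizer_singleton_iff.2 (hw a ha).eq.symm))
      exact mem_centralizer_singleton_iff.1 (this hb)
    have hLab : L ≤ centralizer (L : Set ↥P) := hgrow _ x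
      (fun a ha => mem_centralizer_iff.2 fun b _ => mem_center_iff.1 ha b)
      (fun a ha => (mem_center_iff.1 ha x).symm)
    have hZlt : Nat.card ↥(center ↥P) < Nat.card ↥L := by
      by_contra hle
      have e : center ↥P = L := eq_of_le_of_card_ge le_sup_left (not_lt.1 hle)
      exact hxZ (e ▸ mem_sup_right (mem_zpowers x))
    obtain ⟨l, hl⟩ := IsPGroup.iff_card.1 (hP.to_subgroup L)
    by_cases hl3 : 3 ≤ l
    · exact ⟨L, hLab, hl ▸ pow_dvd_pow p hl3⟩
    obtain ⟨zc, hzc⟩ := IsPGroup.iff_card.1 (hP.to_subgroup (center ↥P))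
    have hzc0 : 1 ≤ zc := by
      haveI : Nontrivial ↥(center ↥P) := hP.center_nontrivial
      rcases Nat.eq_zero_or_pos zc with rfl | h0
      · exact absurd hzc (by simp [Finite.one_lt_card.ne'])
      · exact h0
    rw [hzc, hl] at hZlt
    have hlz : zc < l := (Nat.pow_lt_pow_iff_right hp.out.one_lt).1 hZlt
    obtain rfl : zc = 1 := by omega
    obtain rfl : l = 2 := by omega
    -- the centraliser of `x` has index at most `p`
    have hCidx : Nat.card (↥P ⧸ C) ≤ Nat.card ↥(center ↥P) := by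
      have key : ∀ u v : ↥P, u * x * u⁻¹ * x⁻¹ = v * x * v⁻¹ * x⁻¹ ↔ u⁻¹ * v ∈ C := fun u v => by
        rw [mul_left_inj, mem_centralizer_singleton_iff]
        constructor
        · intro e
          calc u⁻¹ * v * x = u⁻¹ * (v * x * v⁻¹) * v := by group
            _ = x * (u⁻¹ * v) := by rw [← e]; group
        · intro e
          calc u * x * u⁻¹ = u * (x * (u⁻¹ * v)) * v⁻¹ := by group
            _ = v * x * v⁻¹ := by rw [← e]; group
      refine Nat.card_le_card_of_injective
        (Quotient.lift (fun u : ↥P => (⟨u * x * u⁻¹ * x⁻¹, hcomx u⟩ : ↥(center ↥P)))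
          (fun u v huv => Subtype.ext ((key u v).2 (QuotientGroup.leftRel_apply.1 huv)))) ?_
      intro s t hst
      induction s using Quotient.inductionOn with | h u =>
      induction t using Quotient.inductionOn with | h v =>
      exact QuotientGroup.eq.2 ((key u v).1 (congrArg Subtype.val hst))
    rw [hzc, pow_one] at hCidx
    have hC3 : p ^ 3 ≤ Nat.card ↥C := by
      have e : Nat.card ↥C * Nat.card (↥P ⧸ C) = Nat.card ↥P := C.card_mul_index
      have h1 : p ^ 4 ≤ Nat.card ↥C * p := calc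
        p ^ 4 ≤ p ^ n := Nat.pow_le_pow_right hp.out.pos hn4
        _ = Nat.card ↥C * Nat.card (↥P ⧸ C) := by rw [e, hn]
        _ ≤ Nat.card ↥C * p := Nat.mul_le_mul_left _ hCidx
      exact Nat.le_of_mul_le_mul_right (by rw [← pow_succ]; exact h1) hp.out.pos
    obtain ⟨w, hwC, hwL⟩ : ∃ w ∈ C, w ∉ L := by
      by_contra! hall
      have := card_le_of_le (show C ≤ L from hall)
      rw [hl] at this
      exact absurd (this.trans_lt (Nat.pow_lt_pow_right hp.out.one_lt (by norm_num : 2 < 3))) (not_lt.2 hC3)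
    refine ⟨L ⊔ zpowers w, hgrow L w hLab ?_, ?_⟩
    · intro a ha
      have : L ≤ centralizer ({w} : Set ↥P) := sup_le
        (fun b hb => mem_centralizer_singleton_iff.2 (mem_center_iff.1 hb w).symm)
        (zpowers_le.2 (mem_centralizer_singleton_iff.2 (mem_centralizer_singleton_iff.1 hwC).symm))
      exact mem_centralizer_singleton_iff.1 (this ha)
    · obtain ⟨m, hm⟩ := IsPGroup.iff_card.1 (hP.to_subgroup (L ⊔ zpowers w))
      have : 2 < m := by
        by_contra hle
        have e : L = L ⊔ zpowers w := eq_of_le_of_card_ge le_sup_left (by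
          rw [hm, hl]; exact Nat.pow_le_pow_right hp.out.pos (not_lt.1 hle))
        exact hwL (e ▸ mem_sup_right (mem_zpowers w))
      exact hm ▸ pow_dvd_pow p this
  obtain ⟨A₃, hA₃⟩ := Sylow.exists_subgroup_card_pow_prime (G := ↥A) p hA
  obtain ⟨g, hg⟩ := hD ((A₃.map A.subtype).map P.subtype) (H.map P.subtype)
    (hP.to_le (map_subtype_le _)) (hP.to_le (map_subtype_le _))
    (by rw [card_subtype, card_subtype, card_subtype, hA₃, hh, hh3])
  have hab : ∀ s ∈ H.map P.subtype, ∀ t ∈ H.map P.subtype, Commute s t := by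
    rw [hg]
    rintro _ ⟨_, ⟨a, ha, rfl⟩, rfl⟩ _ ⟨_, ⟨b, hb, rfl⟩, rfl⟩
    have h1 : Commute a b :=
      (mem_centralizer_iff.1 (hAab ((map_subtype_le A₃) ha)) b ((map_subtype_le A₃) hb)).symm
    exact (h1.map P.subtype).map (MulAut.conj g).toMonoidHom
  exact hHnc ⟨⟨fun s t => Subtype.ext (Subtype.ext
    (hab _ ⟨s, s.2, rfl⟩ _ ⟨t, t.2, rfl⟩).eq)⟩⟩

end Cfsg.Agent.ConjPSub
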