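import Cfsg.Agent.ConjPSub.Cubed

/-!
The contradiction for a nonabelian Sylow subgroup of order `p ^ 3` and exponent `p`.
-/

set_option autoImplicit false

namespace Cfsg.Agent.ConjPSub

open Subgroup

variable {G : Type*} [Group G] [Finite G]

theorem no_nonabelian_cubed {p : ℕ} [hp : Fact p.Prime] (hodd : Odd p) (P : Sylow p G)
    (cP : Nat.card ↥(P : Subgroup G) = p ^ 3) (hexp : ∀ a ∈ (P : Subgroup G), a ^ p = 1)
    (hnc : ¬ IsMulCommutative ↥(P : Subgroup G))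
    (hD : ∀ H K : Subgroup G, IsPGroup p H → IsPGroup p K → Nat.card H = Nat.card K →
      ∃ g : G, K = H.map (MulAut.conj g).toMonoidHom)
    (h2 : ∀ S : Sylow 2 G, IsCyclic ↥(S : Subgroup G) ∨ (∀ s ∈ (S : Subgroup G), s ^ 2 = 1) ∨
      ((∀ s ∈ (S : Subgroup G), s ^ 4 = 1) ∧
        ∀ s ∈ (S : Subgroup G), ∀ t ∈ (S : Subgroup G), s ^ 2 = 1 → t ^ 2 = 1 → s ≠ 1 → t ≠ 1 →
          s = t)) : False := by
  classical
  haveI : Fact (Nat.Prime 2) := ⟨Nat.prime_two⟩
  have hP : IsPGroup p ↥(P : Subgroup G) := P.2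
  set Z : Subgroup G := (center ↥(P : Subgroup G)).map (P : Subgroup G).subtype
  have hZ : ∀ a : G, a ∈ Z ↔ a ∈ (P : Subgroup G) ∧ ∀ b ∈ (P : Subgroup G), Commute a b := by
    intro a
    constructor
    · rintro ⟨⟨a', ha'⟩, hc, rfl⟩
      exact ⟨ha', fun b hb => congrArg Subtype.val ((mem_center_iff.1 hc) ⟨b, hb⟩).symm⟩
    · rintro ⟨ha, hc⟩
      exact ⟨⟨a, ha⟩, mem_center_iff.2 fun b => Subtype.ext (hc b b.2).eq.symm, rfl⟩
  have hZP : Z ≤ (P : Subgroup G) := fun a ha => ((hZ a).1 ha).1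
  haveI : Nontrivial ↥(P : Subgroup G) := Finite.one_lt_card_iff_nontrivial.1 (by
    rw [cP]; exact Nat.one_lt_pow (by norm_num) hp.out.one_lt)
  -- the centre has order `p`
  have cC : Nat.card ↥(center ↥(P : Subgroup G)) = p := by
    obtain ⟨k, hk, hkc⟩ := IsPGroup.card_center_eq_prime_pow cP (by norm_num)
    have hle : k ≤ 3 := (Nat.pow_dvd_pow_iff_le_right hp.out.one_lt).1
      (hkc ▸ cP ▸ (center ↥(P : Subgroup G)).card_subgroup_dvd_card)
    have hk1 : k = 1 := by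
      by_contra hne
      apply hnc
      haveI : IsCyclic (↥(P : Subgroup G) ⧸ center ↥(P : Subgroup G)) := by
        apply isCyclic_of_card_dvd_prime (p := p)
        have e := (center ↥(P : Subgroup G)).card_mul_index
        rw [cP, hkc] at e
        have : p ^ k * Nat.card (↥(P : Subgroup G) ⧸ center ↥(P : Subgroup G)) = p ^ k * p ^ (3 - k) := by
          rw [← pow_add, Nat.add_sub_cancel' hle]; exact e
        rw [Nat.eq_of_mul_eq_mul_left (pow_pos hp.out.pos k) this]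
        calc p ^ (3 - k) ∣ p ^ 1 := pow_dvd_pow p (by omega)
          _ = p := pow_one p
      exact isMulCommutative_of_isCyclic_quotient_center_self _
    rw [hkc, hk1, pow_one]
  have cZ : Nat.card ↥Z = p := by rw [card_subtype, cC]
  obtain ⟨⟨c, hcZ⟩, hc⟩ := exists_prime_orderOf_dvd_card' (G := ↥Z) p (dvd_of_eq cZ.symm)
  rw [Subgroup.orderOf_mk] at hc
  have hZc : zpowers c = Z :=
    eq_of_le_of_card_ge (zpowers_le.2 hcZ) (by rw [Nat.card_zpowers, hc, cZ])
  obtain ⟨hcP, hcc⟩ := (hZ c).1 hcZ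
  have hcp : c ^ p = 1 := hexp c hcP
  have hc1 : c ≠ 1 := fun e => by rw [e, orderOf_one] at hc; exact hp.out.one_lt.ne hc
  -- a non-central element
  obtain ⟨x₀, hxP, hxZ⟩ : ∃ x₀ ∈ (P : Subgroup G), x₀ ∉ Z := by
    by_contra! h
    exact hnc ⟨⟨fun a b => Subtype.ext (((hZ a).1 (h a a.2)).2 b b.2).eq⟩⟩
  -- commutators of `P` are central
  have hcom : ∀ a ∈ (P : Subgroup G), ∀ b ∈ (P : Subgroup G), a * b * a⁻¹ * b⁻¹ ∈ Z := by
    intro a ha b hb
    have cq : Nat.card (↥(P : Subgroup G) ⧸ center ↥(P : Subgroup G)) = p ^ 2 := by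
      have e : Nat.card ↥(center ↥(P : Subgroup G)) *
          Nat.card (↥(P : Subgroup G) ⧸ center ↥(P : Subgroup G)) =
            Nat.card ↥(P : Subgroup G) := (center ↥(P : Subgroup G)).card_mul_index
      rw [cC, cP] at e
      exact Nat.eq_of_mul_eq_mul_left hp.out.pos (e.trans (by ring))
    refine ⟨⟨a, ha⟩ * ⟨b, hb⟩ * (⟨a, ha⟩ : ↥(P : Subgroup G))⁻¹ * (⟨b, hb⟩ : ↥(P : Subgroup G))⁻¹,
      ?_, rfl⟩
    rw [SetLike.mem_coe, ← QuotientGroup.eq_one_iff]
    rw [QuotientGroup.mk_mul, QuotientGroup.mk_mul, QuotientGroup.mk_mul, QuotientGroup.mk_inv,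
      QuotientGroup.mk_inv, IsPGroup.commutative_of_card_eq_prime_sq cq (QuotientGroup.mk (⟨a, ha⟩ : ↥(P : Subgroup G)))
        (QuotientGroup.mk (⟨b, hb⟩ : ↥(P : Subgroup G))), mul_inv_cancel_right, mul_inv_cancel]
  -- the Sylow subgroup with `x₀` central
  obtain ⟨g₀, hg₀⟩ := hD (zpowers c) (zpowers x₀) (hP.to_le (zpowers_le.2 hcP))
    (hP.to_le (zpowers_le.2 hxP)) (by
      rw [Nat.card_zpowers, Nat.card_zpowers, hc,
        orderOf_eq_prime (hexp x₀ hxP) (fun e => hxZ (e ▸ Z.one_mem))])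
  set CX := centralizer ({x₀} : Set G)
  set P' : Subgroup G := (P : Subgroup G).map (MulAut.conj g₀).toMonoidHom
  have cP' : Nat.card ↥P' = p ^ 3 := by
    rw [show P' = _ from rfl, Nat.card_congr ((P : Subgroup G).equivMapOfInjective _
      (MulAut.conj g₀).injective).symm.toEquiv, cP]
  have hP'X : P' ≤ CX := by
    rintro _ ⟨a, ha, rfl⟩
    rw [mem_centralizer_singleton_iff]
    have hx0 : x₀ ∈ (zpowers c).map (MulAut.conj g₀).toMonoidHom := hg₀ ▸ mem_zpowers x₀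
    obtain ⟨k, hk, hk'⟩ := hx0
    rw [← hk']
    exact (((zpowers_commute (hcc a ha) hk).symm.map (MulAut.conj g₀).toMonoidHom)).eq
  set E : Subgroup G := zpowers x₀ ⊔ zpowers c
  have hEX : E ≤ CX := sup_le (zpowers_le.2 (mem_centralizer_singleton_iff.2 rfl))
    (zpowers_le.2 (mem_centralizer_singleton_iff.2 (hcc x₀ hxP).eq))
  have hEP : E ≤ (P : Subgroup G) := sup_le (zpowers_le.2 hxP) (zpowers_le.2 hcP)
  obtain ⟨Q, hQ⟩ := ((hP.to_le hEP).comap_subtype (K := CX)).exists_le_sylow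
  have hp3 : ∀ R : Sylow p ↥CX, Nat.card ↥(R : Subgroup ↥CX) = p ^ 3 := fun R => by
    obtain ⟨n, hn⟩ := IsPGroup.iff_card.1 R.2
    have hn3 : 3 ≤ n := by
      by_contra hlt
      have : p ^ 3 ∣ p ^ n := by
        rw [← hn, R.card_eq_multiplicity]
        exact (Nat.Prime.pow_dvd_iff_dvd_ordProj hp.out Nat.card_pos.ne').1
          (cP' ▸ card_dvd_of_le hP'X)
      exact hlt ((Nat.pow_dvd_pow_iff_le_right hp.out.one_lt).1 this)
    have hn3' : n ≤ 3 := by
      have : p ^ n ∣ p ^ 3 := by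
        rw [← cP, P.card_eq_multiplicity]
        refine (Nat.Prime.pow_dvd_iff_dvd_ordProj hp.out Nat.card_pos.ne').1 ?_
        rw [← hn]
        exact ((R : Subgroup ↥CX).card_subgroup_dvd_card).trans CX.card_subgroup_dvd_card
      exact (Nat.pow_dvd_pow_iff_le_right hp.out.one_lt).1 this
    rw [hn, le_antisymm hn3' hn3]
  set Q' : Subgroup G := (Q : Subgroup ↥CX).map CX.subtype
  have cQ' : Nat.card ↥Q' = p ^ 3 := by rw [show Q' = _ from rfl, card_subtype, hp3]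
  have hEQ : E ≤ Q' := fun e he => ⟨⟨e, hEX he⟩, hQ he, rfl⟩
  have hQX : Q' ≤ CX := map_subtype_le _
  obtain ⟨gQ, hgQ⟩ := hD (P : Subgroup G) Q' hP (IsPGroup.of_card cQ') (by rw [cP, cQ'])
  have hQexp : ∀ a ∈ Q', a ^ p = 1 := by
    rw [hgQ]
    rintro _ ⟨a, ha, rfl⟩
    rw [← map_pow, hexp a ha, map_one]
  -- `x` is a commutator of `Q'`
  obtain ⟨q, hqQ, hq⟩ : ∃ q ∈ Q', ¬ Commute q c := by
    by_contra! h
    have hc' : c ∈ Z.map (MulAut.conj gQ).toMonoidHom ∧ x₀ ∈ Z.map (MulAut.conj gQ).toMonoidHom := by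
      constructor <;>
      · rw [mem_map_equiv, MulAut.conj_symm_apply]
        refine (hZ _).2 ⟨?_, fun b hb => ?_⟩
        · first
          | (have h1 : c ∈ Q' := hEQ (mem_sup_right (mem_zpowers c))
             rw [hgQ, mem_map_equiv, MulAut.conj_symm_apply] at h1; exact h1)
          | (have h1 : x₀ ∈ Q' := hEQ (mem_sup_left (mem_zpowers x₀))
             rw [hgQ, mem_map_equiv, MulAut.conj_symm_apply] at h1; exact h1)
        · have hb' : gQ * b * gQ⁻¹ ∈ Q' := by rw [hgQ]; exact ⟨b, hb, rfl⟩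
          first
          | (have := ((h _ hb').symm).map (MulAut.conj gQ⁻¹).toMonoidHom
             simpa [mul_assoc] using this)
          | (have h2 : Commute x₀ (gQ * b * gQ⁻¹) :=
               (mem_centralizer_singleton_iff.1 (hQX hb')).symm
             have := h2.map (MulAut.conj gQ⁻¹).toMonoidHom
             simpa [mul_assoc] using this)
    rw [← hZc, MonoidHom.map_zpowers] at hc'
    have hcx : x₀ ∈ zpowers c := by
      rw [zpowers_eq_of_mem_of_prime (by rw [← map_pow, hcp, map_one]) hc1 hc'.1]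
      exact hc'.2
    exact hxZ (hZc ▸ hcx)
  set x := q * c * q⁻¹ * c⁻¹
  have hx1 : x ≠ 1 := fun e => hq (by
    show q * c = c * q
    exact mul_inv_eq_iff_eq_mul.1 (mul_inv_eq_one.1 e))
  have hxx : x ∈ zpowers x₀ := by
    have hqP : gQ⁻¹ * q * gQ ∈ (P : Subgroup G) := by
      have h1 := hqQ
      rw [hgQ, mem_map_equiv, MulAut.conj_symm_apply] at h1; exact h1
    have hcP' : gQ⁻¹ * c * gQ ∈ (P : Subgroup G) := by
      have h1 := hEQ (mem_sup_right (mem_zpowers c))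
      rw [hgQ, mem_map_equiv, MulAut.conj_symm_apply] at h1; exact h1
    have hxP' : gQ⁻¹ * x₀ * gQ ∈ Z := by
      refine (hZ _).2 ⟨?_, fun b hb => ?_⟩
      · have h1 := hEQ (mem_sup_left (mem_zpowers x₀))
        rw [hgQ, mem_map_equiv, MulAut.conj_symm_apply] at h1; exact h1
      · have hb' : gQ * b * gQ⁻¹ ∈ Q' := by rw [hgQ]; exact ⟨b, hb, rfl⟩
        have h2 : Commute x₀ (gQ * b * gQ⁻¹) := (mem_centralizer_singleton_iff.1 (hQX hb')).symm
        have := h2.map (MulAut.conj gQ⁻¹).toMonoidHom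
        simpa [mul_assoc] using this
    have h1 := hcom _ hqP _ hcP'
    rw [← hZc] at h1 hxP'
    have hx01 : gQ⁻¹ * x₀ * gQ ≠ 1 := fun e => hxZ (by
      have : x₀ = 1 := by
        have := congrArg (fun y => gQ * y * gQ⁻¹) e
        simpa [mul_assoc] using this
      exact this ▸ Z.one_mem)
    rw [← zpowers_eq_of_mem_of_prime hcp hx01 hxP'] at h1
    obtain ⟨k, hk⟩ := mem_zpowers_iff.1 h1
    refine mem_zpowers_iff.2 ⟨k, ?_⟩
    have hk' := congrArg (MulAut.conj gQ).toMonoidHom hk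
    rw [map_zpow] at hk'
    simpa [x, mul_assoc] using hk'
  have hxP1 : x ∈ (P : Subgroup G) := zpowers_le.2 hxP hxx
  have hxZ1 : x ∉ Z := fun h => hxZ (by
    have := zpowers_eq_of_mem_of_prime (hexp x₀ hxP) hx1 hxx
    exact zpowers_le.2 h (this ▸ mem_zpowers x₀))
  have hxp : x ^ p = 1 := hexp x hxP1
  have hxc : Commute x c := (hcc x hxP1).symm
  have hqx : Commute q x := (zpowers_commute
    (show Commute x₀ q from (mem_centralizer_singleton_iff.1 (hQX hqQ)).symm) hxx).symm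
  obtain ⟨p₁, hp₁, hp₁x⟩ : ∃ p₁ ∈ (P : Subgroup G), ¬ Commute p₁ x := by
    by_contra! h
    exact hxZ1 ((hZ x).2 ⟨hxP1, fun b hb => (h b hb).symm⟩)
  -- rescale: `a x a⁻¹ = c x`
  set c' := p₁ * x * p₁⁻¹ * x⁻¹
  have hc'1 : c' ≠ 1 := fun e => hp₁x (mul_inv_eq_iff_eq_mul.1 (mul_inv_eq_one.1 e))
  obtain ⟨i, hi⟩ := exists_pow_eq hcp hc'1 (hZc ▸ hcom p₁ hp₁ x hxP1)
  have hc'c : Commute c' x := by
    have : c' ∈ zpowers c := hZc ▸ hcom p₁ hp₁ x hxP1
    exact zpowers_commute (hxc.symm) this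
  have hc'p₁ : Commute c' p₁ := zpowers_commute (hcc p₁ hp₁) (hZc ▸ hcom p₁ hp₁ x hxP1)
  have hap : ∀ k : ℕ, p₁ ^ k * x * (p₁ ^ k)⁻¹ = c' ^ k * x := by
    intro k
    induction k with
    | zero => simp
    | succ k ih =>
      rw [pow_succ', show p₁ * p₁ ^ k * x * (p₁ * p₁ ^ k)⁻¹ = p₁ * (p₁ ^ k * x * (p₁ ^ k)⁻¹) * p₁⁻¹
        by group, ih, ← mul_assoc, ← (hc'p₁.pow_left k).eq]
      rw [mul_assoc (c' ^ k) p₁ x, mul_assoc (c' ^ k) (p₁ * x) p₁⁻¹,
        show p₁ * x * p₁⁻¹ = c' * x by simp [c'], ← mul_assoc, ← pow_succ]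
  set a := p₁ ^ i
  have ha : a * x * a⁻¹ = c * x := by rw [show a = p₁ ^ i from rfl, hap, hi]
  have hac : Commute a c := (hcc a ((P : Subgroup G).pow_mem hp₁ i)).symm
  have haP : a ∈ (P : Subgroup G) := (P : Subgroup G).pow_mem hp₁ i
  -- `q c q⁻¹ = x c`
  have hqc : q * c * q⁻¹ = x * c := by simp [x]
  have hb : q⁻¹ * c * q = x⁻¹ * c := by
    have e : c = q⁻¹ * (x * c) * q := by rw [← hqc]; group
    calc q⁻¹ * c * q = x⁻¹ * (q⁻¹ * (x * c) * q) := by
          rw [show q⁻¹ * (x * c) * q = q⁻¹ * x * q * (q⁻¹ * c * q) by group,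
            show q⁻¹ * x * q = x by rw [mul_assoc, ← hqx.eq, inv_mul_cancel_left], inv_mul_cancel_left]
      _ = x⁻¹ * c := by rw [← e]
  set g := a * q⁻¹ * a
  have hgx : g * x * g⁻¹ = c := by
    rw [show g * x * g⁻¹ = a * (q⁻¹ * (a * x * a⁻¹) * q) * a⁻¹ by simp only [g]; group, ha,
      show q⁻¹ * (c * x) * q = q⁻¹ * c * q * (q⁻¹ * x * q) by group, hb,
      show q⁻¹ * x * q = x by rw [mul_assoc, ← hqx.eq, inv_mul_cancel_left],
      show x⁻¹ * c * x = c by rw [mul_assoc, ← hxc.eq, inv_mul_cancel_left], hac.eq,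
      mul_inv_cancel_right]
  have hgc : g * c * g⁻¹ = x⁻¹ := by
    rw [show g * c * g⁻¹ = a * (q⁻¹ * (a * c * a⁻¹) * q) * a⁻¹ by simp only [g]; group,
      show a * c * a⁻¹ = c by rw [hac.eq, mul_inv_cancel_right], hb,
      show a * (x⁻¹ * c) * a⁻¹ = (a * x * a⁻¹)⁻¹ * (a * c * a⁻¹) by group, ha,
      show a * c * a⁻¹ = c by rw [hac.eq, mul_inv_cancel_right]]
    rw [mul_inv_rev, inv_mul_cancel_right]
  have hg2x : g ^ 2 * x * (g ^ 2)⁻¹ = x⁻¹ := by
    rw [pow_two, show g * g * x * (g * g)⁻¹ = g * (g * x * g⁻¹) * g⁻¹ by group, hgx, hgc]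
  have hg2c : g ^ 2 * c * (g ^ 2)⁻¹ = c⁻¹ := by
    rw [pow_two, show g * g * c * (g * g)⁻¹ = g * (g * c * g⁻¹) * g⁻¹ by group, hgc,
      show g * x⁻¹ * g⁻¹ = (g * x * g⁻¹)⁻¹ by group, hgx]
  obtain ⟨m, hm, r, hr⟩ := exists_odd_pow g
  have hvx : (g ^ m) ^ 2 * x * ((g ^ m) ^ 2)⁻¹ = x⁻¹ := by
    rw [← pow_mul, mul_comm, pow_mul]; exact conj_pow_inv hg2x hm
  have hvc : (g ^ m) ^ 2 * c * ((g ^ m) ^ 2)⁻¹ = c⁻¹ := by
    rw [← pow_mul, mul_comm, pow_mul]; exact conj_pow_inv hg2c hm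
  have h2grp : ∀ s : G, (∃ k : ℕ, s ^ 2 ^ k = 1) → ∃ S : Sylow 2 G, s ∈ (S : Subgroup G) := by
    rintro s ⟨k, hk⟩
    obtain ⟨j, -, hj⟩ := (Nat.dvd_prime_pow Nat.prime_two).1 (orderOf_dvd_of_pow_eq_one hk)
    obtain ⟨S, hS⟩ := (IsPGroup.of_card (p := 2)
      ((Nat.card_zpowers s).trans hj)).exists_le_sylow
    exact ⟨S, hS (mem_zpowers s)⟩
  obtain ⟨S, hvS⟩ := h2grp (g ^ m) ⟨r, hr⟩
  rcases h2 S with hcyc | hel | ⟨hq4, -⟩
  · exact cyclic_no_inversion S hcyc hodd (hexp a haP)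
      (b := q⁻¹) (by rw [inv_pow, hQexp q hqQ, inv_one]) hxp hx1 hg2x
  · rw [hel _ hvS, one_mul, inv_one, mul_one] at hvx
    exact hx1 (eq_one_of_inv_eq hodd hxp hvx.symm)
  set z := (g ^ m) ^ 2
  have hz2 : z ^ 2 = 1 := by rw [← pow_mul]; exact hq4 _ hvS
  have hz1 : z ≠ 1 := fun e => hx1 (eq_one_of_inv_eq hodd hxp (by
    rw [e, one_mul, inv_one, mul_one] at hvx; exact hvx.symm))
  -- every other Sylow 2-subgroup is of quaternion kind too
  have hquat : ∀ T : Sylow 2 G, (∀ s ∈ (T : Subgroup G), ∀ t ∈ (T : Subgroup G),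
      s ^ 2 = 1 → t ^ 2 = 1 → s ≠ 1 → t ≠ 1 → s = t) := by
    intro T
    rcases h2 T with hc | he | ⟨-, hu⟩
    · intro s hs t ht hs2 ht2 hs1 ht1
      haveI := hc
      have h1 : orderOf (⟨s, hs⟩ : ↥(T : Subgroup G)) = 2 := by
        rw [Subgroup.orderOf_mk]; exact orderOf_eq_prime hs2 hs1
      have h3 : orderOf (⟨t, ht⟩ : ↥(T : Subgroup G)) = 2 := by
        rw [Subgroup.orderOf_mk]; exact orderOf_eq_prime ht2 ht1
      obtain ⟨u, hu⟩ := IsCyclic.exists_generator (α := ↥(T : Subgroup G))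
      by_contra hne
      classical
      haveI := Fintype.ofFinite ↥(T : Subgroup G)
      have hle := IsCyclic.card_pow_eq_one_le (α := ↥(T : Subgroup G)) (n := 2) (by norm_num)
      have hsub : ({1, ⟨s, hs⟩, ⟨t, ht⟩} : Finset ↥(T : Subgroup G)) ⊆
          Finset.univ.filter (fun a => a ^ 2 = 1) := by
        intro a ha
        simp only [Finset.mem_insert, Finset.mem_singleton] at ha
        rcases ha with rfl | rfl | rfl <;> simp [Subtype.ext_iff, hs2, ht2]
      have h3c : ({1, ⟨s, hs⟩, ⟨t, ht⟩} : Finset ↥(T : Subgroup G)).card = 3 := by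
        rw [Finset.card_insert_of_notMem (by simp [Subtype.ext_iff, Ne.symm hs1, Ne.symm ht1]),
          Finset.card_pair (by simpa [Subtype.ext_iff] using hne)]
      have := Finset.card_le_card hsub
      omega
    · exfalso
      obtain ⟨k, hk⟩ := MulAction.exists_smul_eq G S T
      have hv' : k * g ^ m * k⁻¹ ∈ (T : Subgroup G) := by
        rw [← hk, Sylow.coe_subgroup_smul]
        exact ⟨g ^ m, hvS, rfl⟩
      have := he _ hv'
      rw [conj_pow] at this
      exact hz1 (by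
        have := congrArg (fun y => k⁻¹ * y * k) this
        simpa [mul_assoc, z] using this)
    · exact hu
  set CE := centralizer ({x, c} : Set G)
  have hCE : ∀ w : G, w ∈ CE ↔ Commute w x ∧ Commute w c := fun w => by
    rw [mem_centralizer_iff]
    constructor
    · exact fun h => ⟨(h x (by simp)).symm, (h c (by simp)).symm⟩
    · rintro ⟨h1, h3⟩ y (rfl | rfl)
      · exact h1.eq.symm
      · exact h3.eq.symm
  -- the centraliser of `E` has odd order
  have hCEodd : ∀ w ∈ CE, w ^ 2 = 1 → w = 1 := by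
    intro w hw hw2
    by_contra hw1
    set K := normalizer ((zpowers x ⊔ zpowers c : Subgroup G) : Set G)
    have hnorm : ∀ (k : G), k ∈ K → ∀ w ∈ CE, k⁻¹ * w * k ∈ CE := by
      intro k hk w hw
      have hall : ∀ e ∈ (zpowers x ⊔ zpowers c : Subgroup G), Commute w e := by
        intro e he
        have : (zpowers x ⊔ zpowers c : Subgroup G) ≤ centralizer ({w} : Set G) :=
          sup_le (zpowers_le.2 (mem_centralizer_singleton_iff.2 ((hCE w).1 hw).1.eq.symm))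
            (zpowers_le.2 (mem_centralizer_singleton_iff.2 ((hCE w).1 hw).2.eq.symm))
        exact (mem_centralizer_singleton_iff.1 (this he)).symm
      have hmove : ∀ e ∈ (zpowers x ⊔ zpowers c : Subgroup G), Commute (k⁻¹ * w * k) e := by
        intro e he
        have := (hall _ ((mem_normalizer_iff.1 hk e).1 he)).map (MulAut.conj k⁻¹).toMonoidHom
        simpa [mul_assoc] using this
      exact (hCE _).2 ⟨hmove x (mem_sup_left (mem_zpowers x)), hmove c (mem_sup_right (mem_zpowers c))⟩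
    have hnE : ∀ y : G, (y * x * y⁻¹ ∈ (zpowers x ⊔ zpowers c : Subgroup G)) →
        (y * c * y⁻¹ ∈ (zpowers x ⊔ zpowers c : Subgroup G)) → y ∈ K := by
      intro y h1 h3
      have hle : (zpowers x ⊔ zpowers c : Subgroup G).map (MulAut.conj y).toMonoidHom ≤
          zpowers x ⊔ zpowers c := by
        rw [Subgroup.map_sup, MonoidHom.map_zpowers, MonoidHom.map_zpowers]
        exact sup_le (zpowers_le.2 h1) (zpowers_le.2 h3)
      have heq := eq_of_le_of_card_ge hle (le_of_eq (Nat.card_congr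
        ((zpowers x ⊔ zpowers c : Subgroup G).equivMapOfInjective _
          (MulAut.conj y).injective).toEquiv))
      refine mem_normalizer_iff.2 fun e => ?_
      constructor
      · intro he
        rw [← heq]
        exact ⟨e, he, rfl⟩
      · intro he
        rw [← heq] at he
        obtain ⟨e', he', h⟩ := he
        rwa [← (MulAut.conj y).injective h]
    have hxE := mem_sup_left (T := zpowers c) (mem_zpowers x)
    have hcE := mem_sup_right (S := zpowers x) (mem_zpowers c)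
    have hzK : z ∈ K := hnE z (by rw [hvx]; exact inv_mem hxE) (by rw [hvc]; exact inv_mem hcE)
    have hwK : w ∈ K := hnE w (by rw [((hCE w).1 hw).1.eq, mul_inv_cancel_right]; exact hxE)
      (by rw [((hCE w).1 hw).2.eq, mul_inv_cancel_right]; exact hcE)
    obtain ⟨T, hzT⟩ := (IsPGroup.of_card (p := 2) (n := 1) (by
      rw [pow_one, Nat.card_zpowers, Subgroup.orderOf_mk, orderOf_eq_prime hz2 hz1] :
      Nat.card ↥(zpowers (⟨z, hzK⟩ : ↥K)) = 2 ^ 1)).exists_le_sylow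
    obtain ⟨T₁, hwT⟩ := (IsPGroup.of_card (p := 2) (n := 1) (by
      rw [pow_one, Nat.card_zpowers, Subgroup.orderOf_mk, orderOf_eq_prime hw2 hw1] :
      Nat.card ↥(zpowers (⟨w, hwK⟩ : ↥K)) = 2 ^ 1)).exists_le_sylow
    obtain ⟨k, hk⟩ := MulAction.exists_smul_eq ↥K T T₁
    have hw' : k⁻¹ * (⟨w, hwK⟩ : ↥K) * k ∈ (T : Subgroup ↥K) := by
      have h1 : (⟨w, hwK⟩ : ↥K) ∈ (T₁ : Subgroup ↥K) := hwT (mem_zpowers _)
      rw [← hk, Sylow.coe_subgroup_smul] at h1
      obtain ⟨t, ht, e⟩ := h1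
      rw [← e]
      change k⁻¹ * (k * t * k⁻¹) * k ∈ _
      rw [show k⁻¹ * (k * t * k⁻¹) * k = t by group]
      exact ht
    obtain ⟨U, hU⟩ := (T.2.map K.subtype).exists_le_sylow
    have h1 : z ∈ (U : Subgroup G) := hU ⟨⟨z, hzK⟩, hzT (mem_zpowers _), rfl⟩
    have h3 : (k : G)⁻¹ * w * (k : G) ∈ (U : Subgroup G) := hU ⟨_, hw', rfl⟩
    have he := hquat U _ h1 _ h3 hz2 (by
      rw [pow_two, show (k : G)⁻¹ * w * k * ((k : G)⁻¹ * w * k) = (k : G)⁻¹ * (w * w) * k by group,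
        ← pow_two, hw2, mul_one, inv_mul_cancel]) hz1 (fun e => hw1 (by
        have := congrArg (fun y => (k : G) * y * (k : G)⁻¹) e
        simpa [mul_assoc] using this))
    have hzCE : z ∈ CE := he ▸ hnorm k k.2 w hw
    rw [((hCE z).1 hzCE).1.eq, mul_inv_cancel_right] at hvx
    exact hx1 (eq_one_of_inv_eq hodd hxp hvx.symm)
  -- `Y = C(E) P` has odd order
  have hPCE : ∀ π ∈ (P : Subgroup G), ∀ w ∈ CE, π * w * π⁻¹ ∈ CE := by
    intro π hπ w hw
    have hπx : ∃ j : ℤ, π⁻¹ * x * π = c ^ j * x := by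
      have h1 : π⁻¹ * x * (π⁻¹)⁻¹ * x⁻¹ ∈ Z := hcom _ ((P : Subgroup G).inv_mem hπ) _ hxP1
      rw [← hZc] at h1
      obtain ⟨j, hj⟩ := mem_zpowers_iff.1 h1
      exact ⟨j, by rw [hj]; group⟩
    obtain ⟨j, hj⟩ := hπx
    obtain ⟨h1, h3⟩ := (hCE w).1 hw
    refine (hCE _).2 ⟨?_, ?_⟩
    · have : Commute w (π⁻¹ * x * π) := by rw [hj]; exact (h3.zpow_right j).mul_right h1
      have := this.map (MulAut.conj π).toMonoidHom
      simpa [mul_assoc] using this
    · have : Commute w (π⁻¹ * c * π) := by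
        rw [mul_assoc, (hcc π hπ).eq, inv_mul_cancel_left]; exact h3
      have := this.map (MulAut.conj π).toMonoidHom
      simpa [mul_assoc] using this
  let Y : Subgroup G :=
    { carrier := {y | ∃ γ ∈ CE, ∃ π ∈ (P : Subgroup G), y = γ * π}
      one_mem' := ⟨1, one_mem _, 1, one_mem _, (one_mul 1).symm⟩
      mul_mem' := by
        rintro _ _ ⟨γ, hγ, π, hπ, rfl⟩ ⟨γ', hγ', π', hπ', rfl⟩
        exact ⟨γ * (π * γ' * π⁻¹), mul_mem hγ (hPCE π hπ γ' hγ'), π * π', mul_mem hπ hπ', by group⟩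
      inv_mem' := by
        rintro _ ⟨γ, hγ, π, hπ, rfl⟩
        exact ⟨π⁻¹ * γ⁻¹ * (π⁻¹)⁻¹, hPCE _ (inv_mem hπ) _ (inv_mem hγ), π⁻¹, inv_mem hπ, by group⟩ }
  -- modulo `C(E)` the element `π` has `p`-power order
  have hmod : ∀ γ ∈ CE, ∀ π ∈ (P : Subgroup G), ∀ k : ℕ, ∃ γ' ∈ CE,
      (γ * π) ^ k = γ' * π ^ k := by
    intro γ hγ π hπ k
    induction k with
    | zero => exact ⟨1, one_mem _, by simp⟩
    | succ k ih =>
      obtain ⟨γ', hγ', e⟩ := ih
      exact ⟨γ' * (π ^ k * γ * (π ^ k)⁻¹),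
        mul_mem hγ' (hPCE _ (pow_mem hπ k) γ hγ), by rw [pow_succ, e, pow_succ]; group⟩
  have hsq : ∀ π ∈ (P : Subgroup G), π ^ 2 ∈ CE → π ∈ CE := by
    intro π hπ h
    obtain ⟨k, hk⟩ := id hodd
    have e : π = ((π ^ 2) ^ k)⁻¹ := by
      refine eq_inv_of_mul_eq_one_left ?_
      rw [← pow_mul, ← pow_succ', ← hk]; exact hexp π hπ
    rw [e]
    exact inv_mem (pow_mem h k)
  have hYodd : ∀ y ∈ Y, y ^ 2 = 1 → y = 1 := by
    rintro _ ⟨γ, hγ, π, hπ, rfl⟩ h
    obtain ⟨γ', hγ', e⟩ := hmod γ hγ π hπ 2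
    have : π ^ 2 ∈ CE := by
      rw [show π ^ 2 = γ'⁻¹ * (γ * π) ^ 2 by rw [e, inv_mul_cancel_left], h, mul_one]
      exact inv_mem hγ'
    exact hCEodd _ (mul_mem hγ (hsq π hπ this)) h
  -- `z` normalises `Y`
  have hzinv : z⁻¹ = z := inv_eq_of_mul_eq_one_right (by rw [← pow_two]; exact hz2)
  have hzCE : ∀ γ ∈ CE, z * γ * z⁻¹ ∈ CE := by
    intro γ hγ
    obtain ⟨h1, h3⟩ := (hCE γ).1 hγ
    have h1' := h1.inv_right.map (MulAut.conj z).toMonoidHom
    have h3' := h3.inv_right.map (MulAut.conj z).toMonoidHom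
    simp only [MulEquiv.coe_toMonoidHom, MulAut.conj_apply, map_inv] at h1' h3'
    rw [hvx, inv_inv] at h1'
    rw [hvc, inv_inv] at h3'
    exact (hCE _).2 ⟨h1', h3'⟩
  have hEfix : ∀ π ∈ (P : Subgroup G), z * π * z⁻¹ * π⁻¹ ∈ CE := by
    intro π hπ
    have key : ∀ e : G, z * e * z⁻¹ = e⁻¹ → z * (π⁻¹ * e * π) * z⁻¹ = (π⁻¹ * e * π)⁻¹ →
        Commute (z * π * z⁻¹ * π⁻¹) e := by
      intro e he hf
      set f := π⁻¹ * e * π with hfdef
      have hf' : z⁻¹ * f * z = f⁻¹ := by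
        have := hf
        rw [hzinv] at this ⊢
        exact this
      show z * π * z⁻¹ * π⁻¹ * e = e * (z * π * z⁻¹ * π⁻¹)
      refine mul_inv_eq_iff_eq_mul.1 ?_
      calc z * π * z⁻¹ * π⁻¹ * e * (z * π * z⁻¹ * π⁻¹)⁻¹ = z * (π * (z⁻¹ * f * z) * π⁻¹) * z⁻¹ := by
            rw [hfdef]; group
        _ = (z * e * z⁻¹)⁻¹ := by rw [hf', hfdef]; group
        _ = e := by rw [he, inv_inv]
    refine (hCE _).2 ⟨key x hvx ?_, key c hvc ?_⟩
    · have h1 : π⁻¹ * x * (π⁻¹)⁻¹ * x⁻¹ ∈ Z := hcom _ (inv_mem hπ) _ hxP1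
      rw [← hZc] at h1
      obtain ⟨j, hj⟩ := mem_zpowers_iff.1 h1
      have e : π⁻¹ * x * π = c ^ j * x := by rw [hj]; group
      rw [e, show z * (c ^ j * x) * z⁻¹ = (z * c * z⁻¹) ^ j * (z * x * z⁻¹) by
        rw [conj_zpow]; group, hvc, hvx, inv_zpow]
      exact (hxc.zpow_right j).inv_inv.symm.eq.trans (mul_inv_rev _ _).symm
    · rw [mul_assoc π⁻¹ c π, (hcc π hπ).eq, inv_mul_cancel_left, hvc]
  have hzY : ∀ y ∈ Y, z * y * z⁻¹ ∈ Y := by
    rintro _ ⟨γ, hγ, π, hπ, rfl⟩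
    exact ⟨z * γ * z⁻¹ * (z * π * z⁻¹ * π⁻¹), mul_mem (hzCE γ hγ) (hEfix π hπ), π, hπ, by group⟩
  have hPY : (P : Subgroup G) ≤ Y := fun π hπ => ⟨1, one_mem _, π, hπ, (one_mul π).symm⟩
  set PY : Sylow p ↥Y := P.subtype hPY
  have hzPY : (z • P : Sylow p G) ≤ Y := by
    rw [Sylow.coe_subgroup_smul]
    rintro _ ⟨π, hπ, rfl⟩
    exact hzY π (hPY hπ)
  obtain ⟨⟨y, hyY⟩, hy⟩ := MulAction.exists_smul_eq ↥Y PY ((z • P).subtype hzPY)
  set n := y⁻¹ * z
  have hnP : n ∈ normalizer ((P : Subgroup G) : Set G) := by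
    rw [show PY = P.subtype hPY from rfl, Sylow.smul_subtype] at hy
    have h1 : y • P = z • P := Sylow.subtype_injective hy
    exact Sylow.smul_eq_iff_mem_normalizer.1
      (show (y⁻¹ * z) • P = P by rw [mul_smul, ← h1, inv_smul_smul])
  have hnk : ∀ k : ℕ, ∃ y' ∈ Y, n ^ k = y' * z ^ k := by
    intro k
    induction k with
    | zero => exact ⟨1, one_mem _, by simp⟩
    | succ k ih =>
      obtain ⟨y', hy', e⟩ := ih
      have hzk : z ^ k * y⁻¹ * (z ^ k)⁻¹ ∈ Y := by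
        clear e
        induction k with
        | zero => simpa using inv_mem hyY
        | succ k ih' =>
          rw [pow_succ', show z * z ^ k * y⁻¹ * (z * z ^ k)⁻¹ = z * (z ^ k * y⁻¹ * (z ^ k)⁻¹) * z⁻¹
            by group]
          exact hzY _ ih'
      exact ⟨y' * (z ^ k * y⁻¹ * (z ^ k)⁻¹), mul_mem hy' hzk, by
        rw [pow_succ, e, pow_succ, show n = y⁻¹ * z from rfl]; group⟩
  obtain ⟨mn, hmn, rn, hrn⟩ := exists_odd_pow n
  set u := n ^ mn
  have huP : u ∈ normalizer ((P : Subgroup G) : Set G) := pow_mem hnP mn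
  obtain ⟨k, rfl⟩ := id hmn
  obtain ⟨y', hy', hu⟩ := hnk (2 * k + 1)
  rw [show z ^ (2 * k + 1) = z by rw [pow_succ, pow_mul, hz2, one_pow, one_mul]] at hu
  obtain ⟨U, huU⟩ := h2grp u ⟨rn, hrn⟩
  have hu4 : u ^ 4 = 1 := by
    rcases h2 U with hc | he | ⟨h4, -⟩
    · -- not cyclic
      exfalso
      obtain ⟨k', hk'⟩ := MulAction.exists_smul_eq G U S
      have hcS : IsCyclic ↥(S : Subgroup G) := by
        rw [← hk']
        haveI := hc
        exact isCyclic_of_surjective (Sylow.equiv U (k' • U)).toMonoidHom (Sylow.equiv U (k' • U)).surjective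
      exact cyclic_no_inversion S hcS hodd (hexp a haP)
        (b := q⁻¹) (by rw [inv_pow, hQexp q hqQ, inv_one]) hxp hx1 hg2x
    · rw [show (4 : ℕ) = 2 * 2 from rfl, pow_mul, he _ huU, one_pow]
    · exact h4 _ huU
  have hu2 : u ^ 2 = 1 := by
    refine hYodd _ ?_ (by rw [← pow_mul]; exact hu4)
    have hu2' : u ^ 2 = y' * (z * y' * z⁻¹) := by
      rw [show u = y' * z from hu, pow_two, hzinv]; group
    rw [hu2']
    exact mul_mem hy' (hzY y' hy')
  -- `u` inverts `x` and `c`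
  obtain ⟨γ, hγ, π, hπ, rfl⟩ := hy'
  have hπCE : π ∈ CE := by
    refine hsq π hπ ?_
    have e1 : (γ * π) * (z * (γ * π) * z⁻¹) = 1 := by
      rw [← hu2, show u = γ * π * z from hu, pow_two, hzinv]; group
    have e2 : π ^ 2 = (π * (z * γ * z⁻¹ * (z * π * z⁻¹ * π⁻¹)) * π⁻¹)⁻¹ * γ⁻¹ := by
      have e3 : γ * π * (z * γ * z⁻¹ * (z * π * z⁻¹ * π⁻¹)) * π = 1 := by
        rw [← e1]; group
      have e4 : π ^ 2 = (π * (z * γ * z⁻¹ * (z * π * z⁻¹ * π⁻¹)) * π⁻¹)⁻¹ * γ⁻¹ *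
          (γ * π * (z * γ * z⁻¹ * (z * π * z⁻¹ * π⁻¹)) * π) := by
        generalize z * γ * z⁻¹ * (z * π * z⁻¹ * π⁻¹) = w
        simp [pow_two, mul_assoc]
      rw [e4, e3, mul_one]
    rw [e2]
    exact mul_mem (inv_mem (hPCE π hπ _ (mul_mem (hzCE γ hγ) (hEfix π hπ)))) (inv_mem hγ)
  have huinv : ∀ e : G, (e = x ∨ e = c) → u * e * u⁻¹ = e⁻¹ := by
    intro e he
    obtain ⟨h1, h3⟩ := (hCE (γ * π)).1 (mul_mem hγ hπCE)
    have hz : z * e * z⁻¹ = e⁻¹ := by rcases he with rfl | rfl <;> assumption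
    have hc' : Commute (γ * π) e⁻¹ := by
      rcases he with rfl | rfl
      · exact h1.inv_right
      · exact h3.inv_right
    rw [show u = γ * π * z from hu, show γ * π * z * e * (γ * π * z)⁻¹ =
      γ * π * (z * e * z⁻¹) * (γ * π)⁻¹ by group, hz, hc'.eq, mul_inv_cancel_right]
  have hu1 : u ≠ 1 := fun e => hx1 (eq_one_of_inv_eq hodd hxp (by
    have := huinv x (Or.inl rfl)
    rw [e, one_mul, inv_one, mul_one] at this
    exact this.symm))
  -- the orbit of `E`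
  set E' : Subgroup G := zpowers x ⊔ zpowers c
  set N := normalizer ((P : Subgroup G) : Set G)
  have hE'P : E' ≤ (P : Subgroup G) := sup_le (zpowers_le.2 hxP1) (zpowers_le.2 hcP)
  have hcomm : ∀ e ∈ E', Commute e x ∧ Commute e c := by
    intro e he
    have h1 : E' ≤ centralizer ({x} : Set G) := sup_le
      (zpowers_le.2 (mem_centralizer_singleton_iff.2 rfl))
      (zpowers_le.2 (mem_centralizer_singleton_iff.2 hxc.symm.eq))
    have h3 : E' ≤ centralizer ({c} : Set G) := sup_le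
      (zpowers_le.2 (mem_centralizer_singleton_iff.2 hxc.eq))
      (zpowers_le.2 (mem_centralizer_singleton_iff.2 rfl))
    exact ⟨mem_centralizer_singleton_iff.1 (h1 he), mem_centralizer_singleton_iff.1 (h3 he)⟩
  have cE' : Nat.card ↥E' = p ^ 2 := by
    obtain ⟨j, hj, hjc⟩ := (Nat.dvd_prime_pow hp.out).1 (cP ▸ card_dvd_of_le hE'P)
    have hne : j ≠ 3 := fun e => hp₁x (by
      have heq : E' = (P : Subgroup G) := eq_of_le_of_card_ge hE'P (by rw [cP, hjc, e])
      exact (hcomm p₁ (heq ▸ hp₁)).1)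
    have hge : 2 ≤ j := by
      by_contra hlt
      have hle : Nat.card ↥E' ≤ p := by
        rw [hjc]
        exact (Nat.pow_le_pow_right hp.out.pos (show j ≤ 1 by omega)).trans (le_of_eq (pow_one p))
      have hcE : zpowers c = E' := eq_of_le_of_card_ge le_sup_right (by
        rw [Nat.card_zpowers, hc]; exact hle)
      exact hxZ1 (hZc ▸ hcE ▸ mem_sup_left (mem_zpowers x))
    rw [hjc, show j = 2 by omega]
  have hxC : ∀ b ∈ (P : Subgroup G), Commute b x → b ∈ E' := by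
    intro b hb hbx
    set C := (P : Subgroup G) ⊓ centralizer ({x} : Set G)
    have hEC : E' ≤ C := le_inf hE'P fun e he => mem_centralizer_singleton_iff.2 (hcomm e he).1.eq
    obtain ⟨j, hj, hjc⟩ := (Nat.dvd_prime_pow hp.out).1 (cP ▸ card_dvd_of_le (inf_le_left : C ≤ _))
    have hne : j ≠ 3 := fun e => hp₁x (by
      have heq : C = (P : Subgroup G) := eq_of_le_of_card_ge inf_le_left (by rw [cP, hjc, e])
      exact (mem_centralizer_singleton_iff.1 (heq ▸ hp₁ : p₁ ∈ C).2))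
    have heq : E' = C := eq_of_le_of_card_ge hEC (by
      rw [cE', hjc]; exact Nat.pow_le_pow_right hp.out.pos (by omega))
    exact heq ▸ ⟨hb, mem_centralizer_singleton_iff.2 hbx.eq⟩
  obtain ⟨T, hT⟩ := (IsPGroup.of_card (p := 2) (n := 1) (by
    rw [pow_one, Nat.card_zpowers, Subgroup.orderOf_mk, orderOf_eq_prime hu2 hu1] :
    Nat.card ↥(zpowers (⟨u, huP⟩ : ↥N)) = 2 ^ 1)).exists_le_sylow
  have hTfix : ∀ t : ↥N, t ∈ T → ∀ e ∈ E', (t : G) * e * (t : G)⁻¹ ∈ E' := by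
    intro t ht
    obtain ⟨V, hV⟩ := (T.2.map N.subtype).exists_le_sylow
    have htu : (t : G) * u * (t : G)⁻¹ = u := hquat V _
      (hV ⟨t * ⟨u, huP⟩ * t⁻¹, T.toSubgroup.mul_mem (T.toSubgroup.mul_mem ht (hT (mem_zpowers _)))
        (T.toSubgroup.inv_mem ht), rfl⟩)
      _ (hV ⟨⟨u, huP⟩, hT (mem_zpowers _), rfl⟩)
      (by
        show ((t : G) * u * (t : G)⁻¹) ^ 2 = 1
        rw [conj_pow, hu2, mul_one, mul_inv_cancel]) hu2
      (fun e => hu1 (by
        have := congrArg (fun w => (t : G)⁻¹ * w * t) e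
        simpa [mul_assoc] using this)) hu1
    have hin : ∀ e : G, e ∈ E' → u * e * u⁻¹ = e⁻¹ → (t : G) * e * (t : G)⁻¹ ∈ E' := by
      intro e he hinv
      set b := (t : G) * e * (t : G)⁻¹
      have hbP : b ∈ (P : Subgroup G) := (mem_normalizer_iff.1 t.2 e).1 (hE'P he)
      have hub : u * b * u⁻¹ = b⁻¹ := by
        rw [show u * b * u⁻¹ = (u * (t : G)) * e * (u * (t : G))⁻¹ by simp only [b]; group,
          show u * (t : G) = (t : G) * u from (mul_inv_eq_iff_eq_mul.1 htu).symm,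
          show (t : G) * u * e * ((t : G) * u)⁻¹ = (t : G) * (u * e * u⁻¹) * (t : G)⁻¹ by group,
          hinv]
        simp only [b]; group
      refine hxC b hbP ?_
      set c₁ := b * x * b⁻¹ * x⁻¹
      have hc₁Z := hcom b hbP x hxP1
      obtain ⟨-, hc₁c⟩ := (hZ c₁).1 hc₁Z
      rw [← hZc] at hc₁Z
      obtain ⟨j, hj⟩ := mem_zpowers_iff.1 hc₁Z
      have e1 : u * c₁ * u⁻¹ = c₁⁻¹ := by
        rw [show c₁ = c ^ j from hj.symm, ← conj_zpow, huinv c (Or.inr rfl), inv_zpow]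
      have e2 : u * c₁ * u⁻¹ = b⁻¹ * x⁻¹ * b * x := by
        rw [show u * c₁ * u⁻¹ = (u * b * u⁻¹) * (u * x * u⁻¹) * (u * b * u⁻¹)⁻¹ * (u * x * u⁻¹)⁻¹
          by simp only [c₁]; group, hub, huinv x (Or.inl rfl), inv_inv, inv_inv]
      have e3 : b⁻¹ * x⁻¹ * b * x = c₁ := by
        have hbx : b * x = c₁ * x * b := by simp [c₁, mul_assoc]
        rw [mul_assoc (b⁻¹ * x⁻¹) b x, hbx, show c₁ * x = x * c₁ from (hc₁c x hxP1).eq,
          mul_assoc x c₁ b, show c₁ * b = b * c₁ from (hc₁c b hbP).eq]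
        group
      have hc₁1 : c₁ = 1 := by
        refine eq_one_of_inv_eq hodd (hexp _ ((hZ _).1 (hcom b hbP x hxP1)).1) ?_
        rw [← e1, e2, e3]
      exact mul_inv_eq_iff_eq_mul.1 (mul_inv_eq_one.1 hc₁1)
    have hab : ∀ e ∈ E', ∀ e' ∈ E', Commute e' e := by
      intro e he e' he'
      have : E' ≤ centralizer ({e} : Set G) := sup_le
        (zpowers_le.2 (mem_centralizer_singleton_iff.2 (hcomm e he).1.eq.symm))
        (zpowers_le.2 (mem_centralizer_singleton_iff.2 (hcomm e he).2.eq.symm))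
      exact mem_centralizer_singleton_iff.1 (this he')
    let J : Subgroup G :=
      { carrier := {e | e ∈ E' ∧ u * e * u⁻¹ = e⁻¹}
        one_mem' := ⟨one_mem _, by simp⟩
        mul_mem' := by
          rintro a b ⟨ha, ha'⟩ ⟨hb, hb'⟩
          refine ⟨mul_mem ha hb, ?_⟩
          rw [← conj_mul, ha', hb', (hab a ha b hb).symm.eq, mul_inv_rev]
        inv_mem' := by
          rintro a ⟨ha, ha'⟩
          exact ⟨inv_mem ha, by rw [← conj_inv, ha']⟩ }
    intro e he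
    have hJ : E' ≤ J := sup_le (zpowers_le.2 ⟨mem_sup_left (mem_zpowers x), huinv x (Or.inl rfl)⟩)
      (zpowers_le.2 ⟨mem_sup_right (mem_zpowers c), huinv c (Or.inr rfl)⟩)
    exact hin e he (hJ he).2
  have hodd' := odd_orbit N E' T hTfix
  -- normality of subgroups of index `p`
  have hlow : ∀ M : Subgroup G, M ≤ (P : Subgroup G) → Nat.card ↥M = p ^ 2 → Z ≤ M := by
    intro M hM cM
    rw [← hZc, zpowers_le]
    by_contra hcM
    have hMc : IsMulCommutative ↥M := IsPGroup.isMulCommutative_of_card_eq_prime_sq cM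
    have hMC : M ⊔ zpowers c = (P : Subgroup G) := by
      refine eq_of_le_of_card_ge (sup_le hM (zpowers_le.2 hcP)) ?_
      obtain ⟨j, hj, hjc⟩ := (Nat.dvd_prime_pow hp.out).1
        (cP ▸ card_dvd_of_le (sup_le hM (zpowers_le.2 hcP)))
      have : j ≠ 2 ∧ 2 ≤ j := by
        refine ⟨fun e => hcM ?_, (Nat.pow_dvd_pow_iff_le_right hp.out.one_lt).1
          (hjc ▸ cM ▸ card_dvd_of_le le_sup_left)⟩
        have heq : M = M ⊔ zpowers c := eq_of_le_of_card_ge le_sup_left (by rw [hjc, e, cM])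
        rw [heq]; exact mem_sup_right (mem_zpowers c)
      rw [cP, hjc, show j = 3 by omega]
    apply hnc
    have hle : M ⊔ zpowers c ≤ centralizer ((M ⊔ zpowers c : Subgroup G) : Set G) := by
      have h1 : M ⊔ zpowers c ≤ centralizer (M : Set G) := sup_le
        (fun a ha => mem_centralizer_iff.2 fun b hb =>
          congrArg Subtype.val (hMc.is_comm.comm ⟨b, hb⟩ ⟨a, ha⟩))
        (zpowers_le.2 (mem_centralizer_iff.2 fun b hb => (hcc b (hM hb)).eq.symm))
      refine sup_le (le_centralizer_iff.1 h1) (zpowers_le.2 (mem_centralizer_iff.2 fun b hb => ?_))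
      exact (hcc b (hMC ▸ hb)).eq.symm
    exact ⟨⟨fun s t => Subtype.ext (mem_centralizer_iff.1 (hle (hMC.symm ▸ t.2)) _
      (hMC.symm ▸ s.2))⟩⟩
  have hnormal : ∀ M : Subgroup G, M ≤ (P : Subgroup G) → Z ≤ M →
      (P : Subgroup G) ≤ normalizer (M : Set G) := by
    intro M hM hZM π hπ
    refine mem_normalizer_iff.2 fun w => ⟨fun hw => ?_, fun hw => ?_⟩
    · have := hZM (hcom π hπ w (hM hw))
      simpa [mul_assoc] using mul_mem this hw
    · have := hZM (hcom π⁻¹ (inv_mem hπ) _ (hM hw))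
      simpa [mul_assoc] using mul_mem this hw
  have hset : {M : Subgroup G | ∃ n ∈ N, E'.map (MulAut.conj n).toMonoidHom = M} =
      {M : Subgroup G | M ≤ (P : Subgroup G) ∧ Nat.card ↥M = p ^ 2} := by
    ext M
    constructor
    · rintro ⟨w, hw, rfl⟩
      refine ⟨?_, by rw [← cE']; exact Nat.card_congr (E'.equivMapOfInjective _
        (MulAut.conj w).injective).symm.toEquiv⟩
      rintro _ ⟨e, he, rfl⟩
      exact (mem_normalizer_iff.1 hw e).1 (hE'P he)
    · rintro ⟨hMP, hMc⟩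
      obtain ⟨w, hw⟩ := hD E' M (hP.to_le hE'P) (hP.to_le hMP) (by rw [cE', hMc])
      have hNM : (P : Subgroup G) ≤ normalizer (M : Set G) := hnormal M hMP (hlow M hMP hMc)
      have hNM' : (w • P : Sylow p G) ≤ normalizer (M : Set G) := by
        rw [Sylow.coe_subgroup_smul]
        rintro _ ⟨π, hπ, rfl⟩
        have hπE : π ∈ normalizer (E' : Set G) := hnormal E' hE'P (hlow E' hE'P cE') hπ
        refine mem_normalizer_iff.2 fun v => ?_
        rw [hw, mem_map_equiv, mem_map_equiv, MulAut.conj_symm_apply, MulAut.conj_symm_apply]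
        rw [mem_normalizer_iff.1 hπE]
        simp [mul_assoc]
      obtain ⟨⟨r, hr⟩, hr'⟩ := MulAction.exists_smul_eq ↥(normalizer (M : Set G))
        ((w • P).subtype hNM') (P.subtype hNM)
      refine ⟨r * w, ?_, ?_⟩
      · refine Sylow.smul_eq_iff_mem_normalizer.1 ?_
        rw [Sylow.smul_subtype] at hr'
        have h1 : r • (w • P) = P := Sylow.subtype_injective hr'
        rw [mul_smul, h1]
      · rw [map_mul, show (MulAut.conj r * MulAut.conj w).toMonoidHom =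
          (MulAut.conj r).toMonoidHom.comp (MulAut.conj w).toMonoidHom from rfl, ← map_map, ← hw]
        refine SetLike.ext fun v => ?_
        rw [mem_map_equiv, MulAut.conj_symm_apply, mem_normalizer_iff.1 hr]
        simp [mul_assoc]
  rw [hset, card_lines (P : Subgroup G) cP Z hZP cZ ?_ hlow] at hodd'
  · exact (Nat.not_even_iff_odd.2 hodd') hodd.add_one
  intro w hwP hwZ
  have hcw : Commute w c := (hcc w hwP).symm
  set M := zpowers w ⊔ zpowers c
  have hMP : M ≤ (P : Subgroup G) := sup_le (zpowers_le.2 hwP) (zpowers_le.2 hcP)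
  have hMab : M ≤ centralizer ({w} : Set G) := sup_le
    (zpowers_le.2 (mem_centralizer_singleton_iff.2 rfl))
    (zpowers_le.2 (mem_centralizer_singleton_iff.2 hcw.symm.eq))
  obtain ⟨j, hj, hjc⟩ := (Nat.dvd_prime_pow hp.out).1 (cP ▸ card_dvd_of_le hMP)
  have hne : j ≠ 3 := fun e => hwZ ((hZ w).2 ⟨hwP, fun b hb => by
    have heq : M = (P : Subgroup G) := eq_of_le_of_card_ge hMP (by rw [cP, hjc, e])
    exact (mem_centralizer_singleton_iff.1 (hMab (heq.symm ▸ hb))).symm⟩)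
  have hge : 2 ≤ j := by
    by_contra hlt
    have hcM : zpowers c = M := eq_of_le_of_card_ge le_sup_right (by
      rw [Nat.card_zpowers, hc, hjc]
      exact (Nat.pow_le_pow_right hp.out.pos (show j ≤ 1 by omega)).trans (le_of_eq (pow_one p)))
    exact hwZ (hZc ▸ hcM ▸ mem_sup_left (mem_zpowers w))
  have cM : Nat.card ↥M = p ^ 2 := by rw [hjc, show j = 2 by omega]
  refine ⟨M, hMP, cM, mem_sup_left (mem_zpowers w), fun M' hM' cM' hwM' => ?_⟩
  exact (eq_of_le_of_card_ge (sup_le (zpowers_le.2 hwM') (hZc ▸ hlow M' hM' cM'))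
    (by rw [cM, cM'])).symm

end Cfsg.Agent.ConjPSub
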