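import Mathlib

/-!
A nonabelian `p`-subgroup of order `p ^ 3` and exponent `p` is impossible when all subgroups of
each `p`-power order are conjugate and the Sylow 2-subgroups are elementary abelian, cyclic or
quaternion of order eight.
-/

set_option autoImplicit false

namespace Cfsg.Agent.ConjPSub

open Subgroup

variable {G : Type*} [Group G] [Finite G]

/-- Subgroups of prime order: any nontrivial element generates. -/
theorem zpowers_eq_of_mem_of_prime {p : ℕ} [Fact p.Prime] {a b : G} (ha : a ^ p = 1) (hb : b ≠ 1)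
    (h : b ∈ zpowers a) : zpowers b = zpowers a := by
  have ha1 : a ≠ 1 := fun e => hb (by simpa [e] using h)
  refine eq_of_le_of_card_ge (zpowers_le.2 h) ?_
  rw [Nat.card_zpowers, Nat.card_zpowers, orderOf_eq_prime ha ha1]
  refine le_of_eq (orderOf_eq_prime ?_ hb).symm
  obtain ⟨k, rfl⟩ := mem_zpowers_iff.1 h
  rw [← zpow_natCast, ← zpow_mul, mul_comm, zpow_mul, zpow_natCast, ha, one_zpow]

theorem exists_pow_eq {p : ℕ} [Fact p.Prime] {a b : G} (ha : a ^ p = 1) (hb : b ≠ 1)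
    (h : b ∈ zpowers a) : ∃ i : ℕ, b ^ i = a := by
  have hm : a ∈ zpowers b := by
    rw [zpowers_eq_of_mem_of_prime ha hb h]
    exact mem_zpowers a
  exact (isOfFinOrder_of_finite b).mem_powers_iff_mem_zpowers.2 hm

theorem zpowers_commute {a b x : G} (h : Commute a b) (hx : x ∈ zpowers a) : Commute x b := by
  obtain ⟨k, rfl⟩ := mem_zpowers_iff.1 hx
  exact h.zpow_left k

section Orbit

/-- The subgroups of order `p ^ 2` of a group of order `p ^ 3` and exponent `p` with centre of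
order `p` correspond to the `p + 1` lines of the quotient by the centre. -/
theorem card_lines {p : ℕ} [hp : Fact p.Prime] (P : Subgroup G) (cP : Nat.card ↥P = p ^ 3)
    (Z : Subgroup G) (hZP : Z ≤ P) (cZ : Nat.card ↥Z = p)
    (hmem : ∀ a ∈ P, a ∉ Z → ∃ M : Subgroup G, M ≤ P ∧ Nat.card ↥M = p ^ 2 ∧ a ∈ M ∧
      ∀ M' : Subgroup G, M' ≤ P → Nat.card ↥M' = p ^ 2 → a ∈ M' → M' = M)
    (hZM : ∀ M : Subgroup G, M ≤ P → Nat.card ↥M = p ^ 2 → Z ≤ M) :
    {M : Subgroup G | M ≤ P ∧ Nat.card ↥M = p ^ 2}.ncard = p + 1 := by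
  classical
  set S := {M : Subgroup G | M ≤ P ∧ Nat.card ↥M = p ^ 2}
  set Sf := (Set.toFinite S).toFinset
  set Pf := (Set.toFinite ((P : Set G) \ Z)).toFinset
  choose f hf using hmem
  let F : G → Subgroup G := fun a => if h : a ∈ P ∧ a ∉ Z then f a h.1 h.2 else ⊥
  have hF : ∀ a ∈ Pf, F a ∈ Sf := fun a ha => by
    obtain ⟨h1, h2⟩ : a ∈ P ∧ a ∉ Z := by simpa [Pf] using ha
    simp only [F, dif_pos (And.intro h1 h2), Sf, Set.Finite.mem_toFinset]
    exact ⟨(hf a h1 h2).1, (hf a h1 h2).2.1⟩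
  have hsum := Finset.card_eq_sum_card_fiberwise (f := F) (s := Pf) (t := Sf) hF
  have hfib : ∀ M ∈ Sf, (Pf.filter fun a => F a = M).card = p ^ 2 - p := fun M hM => by
    obtain ⟨hMP, hMc⟩ : M ≤ P ∧ Nat.card ↥M = p ^ 2 := by simpa [Sf, S] using hM
    rw [← Set.ncard_coe_finset]
    have e : (↑(Pf.filter fun a => F a = M) : Set G) = (M : Set G) \ Z := by
      ext a
      simp only [Finset.coe_filter, Pf, Set.Finite.mem_toFinset, Set.mem_sdiff, SetLike.mem_coe,
        Set.mem_ofPred_eq]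
      refine ⟨fun ⟨⟨h1, h2⟩, h3⟩ => ⟨?_, h2⟩, fun ⟨h1, h2⟩ => ⟨⟨hMP h1, h2⟩, ?_⟩⟩
      · rw [← h3]
        simp only [F, dif_pos (And.intro h1 h2)]
        exact (hf a h1 h2).2.2.1
      · simp only [F, dif_pos (And.intro (hMP h1) h2)]
        exact ((hf a (hMP h1) h2).2.2.2 M hMP hMc h1).symm
    rw [e, Set.ncard_sdiff (hZM M hMP hMc), ← Nat.card_coe_set_eq, ← Nat.card_coe_set_eq,
      SetLike.coe_sort_coe, SetLike.coe_sort_coe, hMc, cZ]
  rw [Finset.sum_const_nat hfib] at hsum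
  have hPf : Pf.card = p ^ 3 - p := by
    rw [← Set.ncard_eq_toFinset_card, Set.ncard_sdiff hZP, ← Nat.card_coe_set_eq,
      ← Nat.card_coe_set_eq, SetLike.coe_sort_coe, SetLike.coe_sort_coe, cP, cZ]
  rw [hPf] at hsum
  rw [Set.ncard_eq_toFinset_card]
  show Sf.card = p + 1
  have h2 := hp.out.two_le
  have h3 : p < p ^ 2 := by nlinarith
  have e : p ^ 3 - p = (p + 1) * (p ^ 2 - p) := by
    have h4 : p ≤ p ^ 3 := by nlinarith
    zify [h3.le, h4]
    ring
  rw [e] at hsum
  exact (Nat.eq_of_mul_eq_mul_right (by omega) hsum).symm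

/-- The conjugates of `E` under a finite group of normalising elements: odd many as soon as a
Sylow 2-subgroup fixes `E`. -/
theorem odd_orbit (N : Subgroup G) (E : Subgroup G) (T : Sylow 2 ↥N)
    (hT : ∀ t : ↥N, t ∈ T → ∀ e ∈ E, (t : G) * e * (t : G)⁻¹ ∈ E) :
    Odd {M : Subgroup G | ∃ n ∈ N, E.map (MulAut.conj n).toMonoidHom = M}.ncard := by
  classical
  haveI : Fact (Nat.Prime 2) := ⟨Nat.prime_two⟩
  set H : Subgroup ↥N := (normalizer (E : Set G)).subgroupOf N
  have hTH : (T : Subgroup ↥N) ≤ H := fun t ht => mem_subgroupOf.2 (mem_normalizer_iff.2 fun e =>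
    ⟨fun he => hT t ht e he, fun he => by
      have h := hT t⁻¹ ((T : Subgroup ↥N).inv_mem ht) _ he
      simpa [mul_assoc] using h⟩)
  have hodd : ¬ 2 ∣ H.index := fun h => T.not_dvd_index (h.trans (index_dvd_of_le hTH))
  suffices {M : Subgroup G | ∃ n ∈ N, E.map (MulAut.conj n).toMonoidHom = M}.ncard = H.index by
    rw [this]; exact Nat.odd_iff.2 (by omega)
  have key : ∀ a b : ↥N, E.map (MulAut.conj (a : G)).toMonoidHom =
      E.map (MulAut.conj (b : G)).toMonoidHom ↔ a⁻¹ * b ∈ H := fun a b => by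
    rw [mem_subgroupOf, mem_normalizer_iff]
    constructor
    · intro h e
      have hab : ∀ e : G, (a : G)⁻¹ * e * a ∈ E ↔ (b : G)⁻¹ * e * b ∈ E := fun e => by
        have h1 := SetLike.ext_iff.1 h e
        rw [mem_map_equiv, mem_map_equiv, MulAut.conj_symm_apply, MulAut.conj_symm_apply] at h1
        exact h1
      have := hab ((b : G) * e * (b : G)⁻¹)
      simp only [mul_assoc, inv_mul_cancel_left, inv_mul_cancel, mul_one] at this
      simpa [mul_assoc] using this.symm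
    · intro h
      ext e
      rw [mem_map_equiv, mem_map_equiv, MulAut.conj_symm_apply, MulAut.conj_symm_apply]
      have := h ((b : G)⁻¹ * e * b)
      simpa [mul_assoc] using this.symm
  let f : ↥N ⧸ H → Subgroup G := Quotient.lift
    (fun n : ↥N => E.map (MulAut.conj (n : G)).toMonoidHom)
    (fun a b hab => (key a b).2 (QuotientGroup.leftRel_apply.1 hab))
  have hf : Function.Injective f := fun x y hxy => by
    induction x using Quotient.inductionOn with | h a =>
    induction y using Quotient.inductionOn with | h b =>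
    exact QuotientGroup.eq.2 ((key a b).1 hxy)
  have hr : {M : Subgroup G | ∃ n ∈ N, E.map (MulAut.conj n).toMonoidHom = M} = Set.range f := by
    ext M
    constructor
    · rintro ⟨n, hn, rfl⟩
      exact ⟨QuotientGroup.mk ⟨n, hn⟩, rfl⟩
    · rintro ⟨x, rfl⟩
      induction x using Quotient.inductionOn with | h a =>
      exact ⟨a, a.2, rfl⟩
  rw [hr, ← Nat.card_coe_set_eq, Nat.card_range_of_injective hf]
  rfl

end Orbit

/-- An element of even order has an odd power of two-power order. -/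
theorem exists_odd_pow (g : G) : ∃ m : ℕ, Odd m ∧ ∃ a : ℕ, (g ^ m) ^ 2 ^ a = 1 := by
  obtain ⟨a, m, hm, e⟩ := Nat.exists_eq_two_pow_mul_odd (orderOf_pos g).ne'
  exact ⟨m, hm, a, by rw [← pow_mul, mul_comm, ← e, pow_orderOf_eq_one]⟩

/-- An automorphism inverting `x` by conjugation, iterated an odd number of times. -/
theorem conj_pow_inv {h x : G} (hx : h * x * h⁻¹ = x⁻¹) {m : ℕ} (hm : Odd m) :
    h ^ m * x * (h ^ m)⁻¹ = x⁻¹ := by
  obtain ⟨k, rfl⟩ := hm
  have h2 : Commute (h ^ 2) x := by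
    show h ^ 2 * x = x * h ^ 2
    have : h ^ 2 * x * (h ^ 2)⁻¹ = x := by
      rw [pow_two, show h * h * x * (h * h)⁻¹ = h * (h * x * h⁻¹) * h⁻¹ by group, hx,
        show h * x⁻¹ * h⁻¹ = (h * x * h⁻¹)⁻¹ by group, hx, inv_inv]
    exact mul_inv_eq_iff_eq_mul.1 this
  rw [pow_succ', pow_mul]
  have h3 : Commute ((h ^ 2) ^ k) x := h2.pow_left k
  calc h * (h ^ 2) ^ k * x * (h * (h ^ 2) ^ k)⁻¹
      = h * ((h ^ 2) ^ k * x * ((h ^ 2) ^ k)⁻¹) * h⁻¹ := by group
    _ = x⁻¹ := by rw [h3.eq, mul_inv_cancel_right, hx]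

theorem eq_one_of_inv_eq {p : ℕ} (hp : Odd p) {x : G} (hx : x ^ p = 1) (h : x⁻¹ = x) : x = 1 := by
  obtain ⟨k, rfl⟩ := hp
  have h2 : x ^ 2 = 1 := by rw [pow_two]; exact mul_eq_one_iff_eq_inv.2 h.symm
  rwa [pow_succ, pow_mul, h2, one_pow, one_mul] at hx

/-- Cyclic Sylow 2-subgroups: an inversion of an element of odd order is not induced by a product
of elements of odd order. -/
theorem cyclic_no_inversion (S : Sylow 2 G) (hS : IsCyclic ↥(S : Subgroup G)) {a b x : G}
    {p : ℕ} (hp : Odd p) (ha : a ^ p = 1) (hb : b ^ p = 1) (hx : x ^ p = 1) (hx1 : x ≠ 1) :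
    (a * b * a) ^ 2 * x * ((a * b * a) ^ 2)⁻¹ ≠ x⁻¹ := by
  haveI : Fact (Nat.Prime 2) := ⟨Nat.prime_two⟩
  intro hinv
  by_cases h2 : 2 ∣ Nat.card G
  swap
  · -- odd order group
    have ho : Odd (orderOf ((a * b * a) ^ 2)) := by
      rcases Nat.even_or_odd (orderOf ((a * b * a) ^ 2)) with he | ho
      · exact absurd (he.two_dvd.trans (_root_.orderOf_dvd_natCard _)) h2
      · exact ho
    have := conj_pow_inv hinv ho
    rw [pow_orderOf_eq_one, one_mul, inv_one, mul_one] at this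
    exact hx1 (eq_one_of_inv_eq hp hx this.symm)
  have hmin : (Nat.card G).minFac = 2 := by rw [Nat.minFac_eq_two_iff]; exact h2
  have hle := IsCyclic.normalizer_le_centralizer hmin (P := S) hS
  set N := (MonoidHom.transferSylow S hle).ker
  have hN : ¬ 2 ∣ Nat.card ↥N := MonoidHom.not_dvd_card_ker_transferSylow S hle
  have hmem : ∀ y : G, y ^ p = 1 → y ∈ N := fun y hy => by
    rw [MonoidHom.mem_ker]
    have h1 : orderOf (MonoidHom.transferSylow S hle y) ∣ p :=
      orderOf_dvd_of_pow_eq_one (by rw [← map_pow, hy, map_one])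
    obtain ⟨k, hk⟩ := S.2 (MonoidHom.transferSylow S hle y)
    have h2' : orderOf (MonoidHom.transferSylow S hle y) ∣ 2 ^ k := orderOf_dvd_of_pow_eq_one hk
    have : orderOf (MonoidHom.transferSylow S hle y) ∣ Nat.gcd p (2 ^ k) := Nat.dvd_gcd h1 h2'
    rw [Nat.Coprime.gcd_eq_one (Nat.Coprime.pow_right k (Nat.coprime_two_right.2 hp))] at this
    exact orderOf_eq_one_iff.1 (Nat.dvd_one.1 this)
  have hg : (a * b * a) ^ 2 ∈ N :=
    pow_mem (mul_mem (mul_mem (hmem a ha) (hmem b hb)) (hmem a ha)) 2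
  have ho : Odd (orderOf ((a * b * a) ^ 2)) := by
    rcases Nat.even_or_odd (orderOf ((a * b * a) ^ 2)) with he | ho
    · exact absurd (he.two_dvd.trans (N.orderOf_dvd_natCard hg)) hN
    · exact ho
  have := conj_pow_inv hinv ho
  rw [pow_orderOf_eq_one, one_mul, inv_one, mul_one] at this
  exact hx1 (eq_one_of_inv_eq hp hx this.symm)

end Cfsg.Agent.ConjPSub
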